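import Cfsg.Agent.Loc.HS5
import Cfsg.Agent.Loc.CD
import Cfsg.Agent.W2.LV

/-! Groups of Higman-Sims type: the hypotheses in their usual form. -/

set_option autoImplicit false

namespace CF.HS

open Subgroup Cfsg CF.Recog CF.Loc CF.Even Function

variable {G : Type*} [Group G] [Finite G]

theorem hy_of {t : G} (ht : orderOf t = 2) {Cy E V : Subgroup G} (hCy : IsCyclic Cy) (c4 : Nat.card Cy = 4)
    (hle : Cy ≤ pCoreOf 2 (Cen t) ⊓ 𝐂(pCoreOf 2 (Cen t))) (hE : IsExtraspecial 2 E) (c32 : Nat.card E = 32)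
    (hp : Cy ⊔ E = pCoreOf 2 (Cen t)) (hm : Cy ⊓ E = E ⊓ 𝐂(E))
    (eH : Cen t ⧸ pCore 2 (Cen t) ≃* Equiv.Perm (Fin 5)) (sq : ∀ v ∈ V, v ^ 2 = 1) (c8 : Nat.card V = 8)
    (VR : V ≤ pCoreOf 2 (Cen t)) (eO : pCore 2 𝐍(V) ≃* Multiplicative (ZMod 4 × ZMod 4 × ZMod 4))
    (eM : 𝐍(V) ⧸ pCore 2 𝐍(V) ≃* GL (Fin 3) (ZMod 2)) : ∃ y, Hy t y (pCoreOf 2 (Cen t)) V := by
  have : Fact (Nat.Prime 2) := ⟨Nat.prime_two⟩
  have tR : t ∈ pCoreOf 2 (Cen t) := zpowers_le.1 (le_pCoreOf (isPGroup_zpowers (k := 1) (by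
    rw [pow_one, ← ht, pow_orderOf_eq_one])) (zpowers_le.2 (mem_cen.2 rfl)) fun x hx =>
      centralizer_le_normalizer _ fun b hb => (comm_zp (mem_cen.1 hx).symm b hb))
  have RH := pCoreOf_le 2 (Cen t)
  have ex : ∃ π : Cen t →* Equiv.Perm (Fin 5), Surjective π ∧ ∀ x, π x = 1 ↔ (x : G) ∈ pCoreOf 2 (Cen t) :=
    ⟨eH.toMonoidHom.comp (QuotientGroup.mk' _), eH.surjective.comp (QuotientGroup.mk'_surjective _),
      fun x => by simp [pCoreOf]⟩
  have cH := (pCore 2 (Cen t)).card_eq_card_quotient_mul_card_subgroup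
  rw [Nat.card_congr eH.toEquiv, Nat.card_perm, Nat.card_fin,
    ← card_map_of_injective (K := pCore 2 _) (Cen t).subtype_injective, ← pCoreOf] at cH
  generalize pCoreOf 2 (Cen t) = R at *
  obtain ⟨z, xs, hz⟩ := exists_xs hE
  obtain ⟨y, rfl⟩ := (Subgroup.isCyclic_iff_exists_zpowers_eq_top _).1 hCy
  rw [Nat.card_zpowers] at c4
  have yR := hle (mem_zpowers y)
  have ER : E ≤ R := hp ▸ le_sup_right
  have y4 : y ^ 4 = 1 := c4 ▸ pow_orderOf_eq_one y
  have inv : ∀ x ∈ zpowers y, x * x = 1 → x = 1 ∨ x = y * y := fun x hx e => by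
    obtain ⟨n, rfl⟩ := (Submonoid.mem_powers_iff _ _).1 (mem_powers_iff_mem_zpowers.2 hx)
    rw [← pow_add, ← orderOf_dvd_iff_pow_eq_one, c4] at e
    rw [← pow_mod_orderOf, c4]
    rcases (by omega : n % 4 = 0 ∨ n % 4 = 2) with k | k <;> simp [k, pow_two]
  have zy : z ∈ zpowers y := (hm.ge ⟨xs.mem, xs.cent⟩).1
  obtain rfl := (inv z zy (mul_self_of_invol xs.ord)).resolve_left (Invol.ne_one_of_orderOf xs.ord)
  have dec : ∀ x ∈ R, ∃ c ∈ zpowers y, ∃ e ∈ E, c * e = x := fun x hx =>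
    (mem_sup_of_le_normalizer' (fun c hc => centralizer_le_normalizer _
      (centralizer_le ER (hle hc).2))).1 (hp.ge hx)
  have cen : ∀ x ∈ R, x ∈ 𝐂(E) → x ∈ zpowers y := fun x hx k => by
    obtain ⟨c, hc, e, he, rfl⟩ := dec x hx
    exact mul_mem hc (hm.ge ⟨he, (mul_mem_cancel_left (centralizer_le ER (hle hc).2)).1 k⟩).1
  obtain rfl := (inv t (cen t tR fun x hx => mem_cen.1 (RH (ER hx))) (mul_self_of_invol ht)).resolve_left
    (Invol.ne_one_of_orderOf ht)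
  have c2 : Nat.card ↥(zpowers y ⊓ E) = 2 := by rw [hm, hz, Nat.card_zpowers, ht]
  have cR : Nat.card R = 64 := by
    have := card_sup_mul_card_inf (H := zpowers y) (N := E) fun c hc => centralizer_le_normalizer _
      (centralizer_le ER (hle hc).2)
    rw [hp, c2, Nat.card_zpowers, c4, c32] at this
    omega
  have vv : ∀ v ∈ V, v * v = 1 := fun v hv => pow_two v ▸ sq v hv
  have vc : V ≤ 𝐂(V) := fun a ha b hb => by
    rw [← inv_eq_of_mul_eq_one_left (vv _ (mul_mem hb ha)), mul_inv_rev, inv_eq_of_mul_eq_one_left (vv a ha),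
      inv_eq_of_mul_eq_one_left (vv b hb)]
  have zV : y * y ∈ V := by
    by_contra n
    have yV : zpowers y ≤ 𝐂(V) := fun c hc => centralizer_le VR (hle hc).2
    have h1 := card_sup_mul_card_inf (yV.trans (centralizer_le_normalizer _))
    rw [(eq_bot_iff_forall (zpowers y ⊓ V)).2 fun x hx => (inv x hx.1 (vv x hx.2)).resolve_right
      fun e => n (e ▸ hx.2), card_bot, Nat.card_zpowers, c4, c8] at h1
    have h2 := card_mul_le_sup_inf E (zpowers y ⊔ V)
    rw [show E ⊔ (zpowers y ⊔ V) = R from le_antisymm (sup_le ER (sup_le (zpowers_le.2 yR.1) VR))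
      (hp.ge.trans (sup_le (le_sup_of_le_right le_sup_left) le_sup_left)), cR, c32] at h2
    have h3 := card_mul_card_centralizer hE (W := E ⊓ (zpowers y ⊔ V))
      (hm.ge.trans (le_inf inf_le_right (inf_le_left.trans le_sup_left))) inf_le_left
    have ab : zpowers y ⊔ V ≤ 𝐂(zpowers y ⊔ V) := sup_le
      (fun c hc x hx => (hle hc).2 x (sup_le (zpowers_le.2 yR.1) VR hx))
      (le_centralizer_iff.1 (sup_le yV vc))
    have h4 := card_le_of_le (inf_le_inf_left E (ab.trans (centralizer_le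
      (inf_le_right (a := E) (b := zpowers y ⊔ V)))))
    nlinarith
  have p2 : IsPGroup 2 V := IsPGroup.of_card (n := 3) c8
  have VW := le_pCoreOf p2 le_normalizer le_rfl
  have cO : Nat.card (pCore 2 𝐍(V)) = 64 := by rw [Nat.card_congr eO.toEquiv]; simp
  have cM := (pCore 2 𝐍(V)).card_eq_card_quotient_mul_card_subgroup
  rw [Nat.card_congr eM.toEquiv, cO, Matrix.card_GL_field] at cM
  simp only [Fin.prod_univ_three, ZMod.card] at cM
  have ab : ∀ a ∈ pCoreOf 2 𝐍(V), ∀ b ∈ pCoreOf 2 𝐍(V), a * b = b * a := by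
    rintro _ ⟨a, ha, rfl⟩ _ ⟨b, hb, rfl⟩
    exact congrArg (fun x : pCore 2 𝐍(V) => (x.1 : G))
      (eO.injective (by rw [map_mul, map_mul, mul_comm]) : (⟨a, ha⟩ * ⟨b, hb⟩ : pCore 2 𝐍(V)) = ⟨b, hb⟩ * ⟨a, ha⟩)
  have CW : 𝐂(V) = pCoreOf 2 𝐍(V) := by
    refine le_antisymm (fun x hx => ?_) fun a ha b hb => ab _ (VW hb) _ ha
    obtain ⟨e⟩ := W2.gl_psl
    have := Classical.isSimpleGroup_PSL_of_three_le (ι := Fin 3) (F := ZMod 2) (by simp)
    have := (eM.trans e).isSimpleGroup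
    have hn : (𝐂(V).subgroupOf 𝐍(V)).Normal := normal_subgroupOf_of_le_normalizer (normalizer_le_normalizer_centralizer V)
    have le : pCore 2 𝐍(V) ≤ 𝐂(V).subgroupOf 𝐍(V) := fun a ha b hb => ab _ (VW hb) _ ⟨a, ha, rfl⟩
    rcases (hn.map _ (QuotientGroup.mk'_surjective (pCore 2 𝐍(V)))).eq_bot_or_eq_top with k | k
    · rw [Subgroup.map_eq_bot_iff, QuotientGroup.ker_mk'] at k
      exact ⟨⟨x, centralizer_le_normalizer _ hx⟩, k hx, rfl⟩
    · have := congrArg (comap (QuotientGroup.mk' _)) k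
      rw [comap_map_eq, QuotientGroup.ker_mk', sup_eq_left.2 le, comap_top] at this
      have := card_dvd_of_le (H := 𝐍(V)) (K := Cen (y * y)) fun m hm =>
        mem_cen.2 (this.ge (mem_top (⟨m, hm⟩ : 𝐍(V))) _ zV).symm
      rw [cM, cH, cR] at this
      exact absurd this (by decide)
  refine ⟨y, rfl, mul_self_of_invol ht, Invol.ne_one_of_orderOf ht, yR.1, yR.2, fun x hx => ?_, cR, ex, VR, zV,
    vv, c8, ?_, CW ▸ ab, by rw [CW, pCoreOf, card_map_of_injective (subtype_injective _), cO], cM⟩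
  · obtain ⟨c, hc, e, he, rfl⟩ := dec x hx
    have k : c * c = 1 ∨ c * c = y * y := inv _ (mul_mem hc hc) (by
      obtain ⟨n, rfl⟩ := hc
      simp only [← zpow_add]
      rw [show n + n + (n + n) = (4 : ℕ) * n by omega, zpow_mul, zpow_natCast, y4, one_zpow])
    rw [mul_assoc, ← mul_assoc e, (hle hc).2 e (ER he), mul_assoc, ← mul_assoc c]
    rcases k with k | k <;> rcases xs.sq e he with l | l <;> simp [k, l, mul_self_of_invol ht]
  · by_contra! k
    have := card_le_of_le (H := V) fun v hv => cen v (VR hv) fun x hx => k x (ER hx) v hv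
    rw [Nat.card_zpowers] at this
    omega

end CF.HS
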