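/-
The P(G,V)-theorem, part 1: basic lemmas and odd characteristic.
-/
import Cfsg.Agent.Sig.Amb
import Cfsg.Agent.BG2.P4c
import Cfsg.Agent.Char.Integral
import Cfsg.Agent.PLocal.Replace
set_option autoImplicit false
set_option linter.unusedSectionVars false

namespace CF.PV
open Subgroup Cfsg CF.BG CF.Sig
open scoped commutatorElement

variable {G : Type*} [Group G] [Finite G] {A B K M T W X : Subgroup G} {a b d g h u w x y : G}
  {p q : ℕ}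

theorem key0 (k : Comp K X) (n : K ≤ 𝐍 M) (hg : g ∈ 𝐍 K) (c : ∀ x ∈ K, ⁅x, g⁆ ∈ M) :
    g ∈ 𝐂 K ∨ K ≤ M := by
  rcases k.eq_or (normalIn_inf_left n) with e | e
  · exact .inr (e ▸ inf_le_right)
  refine .inl (zpowers_le.1 (cent_of_perfect k.perfect (le_centMod.1 (zpowers_le.2
    (mem_centMod.2 ⟨norm_le_norm_cent _ hg, fun x hx => ?_⟩))).2))
  rw [← commutatorElement_inv]
  refine inv_mem (e ⟨?_, c x hx⟩)
  rw [commutatorElement_def, mul_assoc, mul_assoc, ← mul_assoc g]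
  exact mul_mem hx (conj_mem_of_norm hg (inv_mem hx))

theorem key (k : Comp K X) (n : K ≤ 𝐍 M) (hg : g ∈ 𝐍 K) (hw : w ∈ 𝐂 K) (m : g * w ∈ M) :
    g ∈ 𝐂 K ∨ K ≤ M := key0 k n hg fun x hx => by
  have e : ⁅x, g⁆ = x * (g * w) * x⁻¹ * (g * w)⁻¹ := by
    rw [mul_assoc x, mul_assoc g, ← hw _ (inv_mem hx), commutatorElement_def]; group
  exact e ▸ mul_mem (conj_mem_of_norm (n hx) m) (inv_mem m)

theorem sol2 (k : Comp K X)
    (c : ∀ s, s.Prime → s ≠ p → s ≠ q → ∀ x ∈ K, PiElt {s} x → x ∈ 𝐂 K) : False := by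
  have h : PiGrp {p, q} K := qs_pi_of_relIndex k.qs (BG2.piNat_relIndex_of_forall
    fun s hs n Q hQ k x hx => c s hs (fun e => n (.inl e)) (fun e => n (.inr e)) x (hQ hx) (k.elt hx))
  exact k.not_sol (CF.Char.isSolvable_of_card_primeFactors_le_two
    ((Finset.card_le_card (t := {p, q}) fun r hr => by
      simpa using h r (Nat.prime_of_mem_primeFactors hr) (Nat.dvd_of_mem_primeFactors hr)).trans
    Finset.card_le_two))

theorem cmem (hg : g ∈ 𝐍 W) (hw : w ∈ W) : ⁅g, w⁆ ∈ W :=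
  mul_mem (conj_mem_of_norm hg hw) (inv_mem hw)

theorem mem_cm (t : T ≤ W) (c : ∀ w ∈ W, ⁅g, w⁆ ∈ T) : g ∈ centMod W T := by
  refine mem_centMod.2 ⟨mem_norm_of_cj_le ?_, c⟩
  intro z hz
  obtain ⟨v, hv, rfl⟩ := mem_cj_iff.1 hz
  simpa [commutatorElement_def] using mul_mem (c v (t hv)) hv

/-- `g ∈ Mo W u` iff `[W, g, u] = 1` -/
def Mo (W : Subgroup G) (u : G) : Subgroup G := centMod W (W ⊓ 𝐂₁ u)

theorem mem_Mo (hg : g ∈ 𝐍 W) : g ∈ Mo W u ↔ ∀ w ∈ W, ⁅g, w⁆ * u = u * ⁅g, w⁆ :=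
  ⟨fun h w hw => mem_cent1.1 ((mem_centMod.1 h).2 w hw).2,
    fun h => mem_cm inf_le_left fun w hw => ⟨cmem hg hw, mem_cent1.2 (h w hw)⟩⟩

theorem norm_Mo (hg : g ∈ 𝐍 W) (c : g * u = u * g) : g ∈ 𝐍 (Mo W u) := by
  rw [← cj_eq_self, Mo, cj_centMod, cj_inf, cj_cent1, cj_of_norm hg, c, mul_inv_cancel_right]

theorem swap (ab : Abel W) (hg : g ∈ 𝐍 W) (hu : u ∈ 𝐍 W) (c : g * u = u * g) (m : g ∈ Mo W u) :
    u ∈ Mo W g := (mem_Mo hu).2 fun w hw => by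
  have e := (mem_Mo hg).1 m w hw
  have a1 := conj_mem_of_norm hg hw
  have a2 := conj_mem_of_norm hu hw
  have a3 := conj_mem_of_norm hu a1
  have f : u * (g * w * g⁻¹) * u⁻¹ * (u * w * u⁻¹)⁻¹ = g * w * g⁻¹ * w⁻¹ := by
    rw [← commutatorElement_def g w, ← mul_inv_eq_iff_eq_mul.2 e.symm, commutatorElement_def]
    group
  have f2 : g * (u * w * u⁻¹) * g⁻¹ = u * (g * w * g⁻¹) * u⁻¹ := by
    calc _ = (g * u) * w * (g * u)⁻¹ := by group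
      _ = _ := by rw [c]; group
  symm
  rw [← mul_inv_eq_iff_eq_mul]
  calc _ = g * (u * w * u⁻¹) * g⁻¹ * (g * w * g⁻¹)⁻¹ := by rw [commutatorElement_def]; group
    _ = g * w * g⁻¹ * w⁻¹ * (u * w * u⁻¹) * (g * w * g⁻¹)⁻¹ := by rw [f2, ← f]; group
    _ = _ := by
      rw [mul_assoc (g * w * g⁻¹), ab.mul_comm a1 (mul_mem (inv_mem hw) a2),
        ab.mul_comm (inv_mem hw) a2, commutatorElement_def]
      group

/-- the basic configuration -/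
structure St (p : ℕ) (K X A W : Subgroup G) : Prop where
  hp : p.Prime
  k : Comp K X
  ax : A ≤ 𝐍 X
  ea : Abelem p A
  ew : Abelem p W
  aw : A ≤ 𝐍 W
  kw : K ≤ 𝐍 W
  f : ∀ a ∈ A, a ∈ 𝐂 K → a = 1

namespace St

theorem cjm (s : St p K X A W) (hg : g ∈ A) (ha : a ∈ A) : g⁻¹ * a * g = a := by
  rw [mul_assoc, s.ea.abel.mul_comm ha hg, inv_mul_cancel_left]

protected theorem cj (s : St p K X A W) (hg : g ∈ A) : St p (cj g K) X A W :=
  { s with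
    k := s.k.cj_of_norm (s.ax hg)
    kw := by rw [← cj_of_norm (s.aw hg), ← cj_norm]; exact cj_mono _ s.kw
    f := fun a ha c => s.f a ha (by rwa [← cj_cent, mem_cj, s.cjm hg ha] at c) }

theorem ncj (s : St p K X A W) (hg : g ∈ A) (ha : a ∈ A) : a ∈ 𝐍 (cj g K) ↔ a ∈ 𝐍 K := by
  rw [← cj_norm, mem_cj, s.cjm hg ha]

theorem cc (s : St p K X A W) (hg : g ∈ A) (hh : h ∈ A) (n : h⁻¹ * g ∉ 𝐍 K) :
    cj g K ≤ 𝐂 (cj h K) := (s.cj hg).k.cent_of_ne (s.cj hh).k fun e => n <| by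
  rw [← cj_eq_self, ← cj_cj, e, cj_cj, inv_mul_cancel, cj_of_mem (one_mem _)]

theorem c1 (s : St p K X A W) (hg : g ∈ A) (n : g ∉ 𝐍 K) (hx : x ∈ K) : g * x * g⁻¹ ∈ 𝐂 K := by
  have := s.cc hg (one_mem _) (by simpa using n) (conj_mem_cj.2 hx)
  rwa [cj_of_mem (one_mem _)] at this

theorem nn (s : St p K X A W) (ha : a ∈ A) (n : a ∉ 𝐍 K) (hg : g ∈ zpowers a) (g1 : g ≠ 1) :
    g ∉ 𝐍 K := fun m => n <| by
  have a1 : a ≠ 1 := fun e => n (e ▸ one_mem _)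
  have := zpowers_eq_of_prime (by rw [s.ea.card_zpowers ha a1]; exact s.hp) hg g1
  exact (zpowers_le.2 m) (this ▸ mem_zpowers a)

theorem nc (s : St p K X A W) : ∃ x ∈ K, x ∉ 𝐂 K := SetLike.not_le_iff_exists.1 s.k.not_abel

theorem ccj (s : St p K X A W) (hg : g ∈ A) (c : cj g K ≤ 𝐂 W) : K ≤ 𝐂 W := by
  rwa [cj_le_iff, cj_cent, cj_of_norm (inv_mem (s.aw hg))] at c

/-- diagonal elements -/
theorem dpow (s : St p K X A W) (ha : a ∈ A) (n : a ∉ 𝐍 K) (hx : x ∈ K) :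
    ∃ y ∈ 𝐍 W ⊓ 𝐂 K, x * y * a = a * (x * y) := by
  have a1 : a ≠ 1 := fun e => n (e ▸ one_mem _)
  have H : ∀ k, k < p → ∃ y ∈ 𝐍 W ⊓ 𝐂 K, (x * a) ^ (k + 1) = x * y * a ^ (k + 1) := by
    intro k
    induction k with
    | zero => exact fun _ => ⟨1, one_mem _, by simp⟩
    | succ k ih =>
      intro hk
      obtain ⟨y, hy, e⟩ := ih (by omega)
      have m := pow_mem ha (k + 1)
      refine ⟨y * (a ^ (k + 1) * x * (a ^ (k + 1))⁻¹), mul_mem hy ⟨(s.cj m).kw (conj_mem_cj.2 hx), s.c1 m (s.nn ha n (npow_mem_zpowers _ _)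
          (pow_ne_one_of_lt_orderOf (by omega) (by rwa [s.ea.orderOf ha a1]))) hx⟩, ?_⟩
      rw [pow_succ, e, pow_succ a (k + 1)]; group
  obtain ⟨y, hy, e⟩ := H (p - 1) (by have := s.hp.pos; omega)
  rw [Nat.sub_add_cancel s.hp.pos, s.ea.pow a ha, mul_one] at e
  refine ⟨y, hy, mul_left_cancel (a := x) ?_⟩
  have c := ((Commute.refl (x * a)).pow_right p).eq
  rw [e] at c
  rw [← mul_assoc x a, c, ← mul_assoc (x * y), mul_assoc x y x, ← hy.2 x hx]; group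

theorem diag (s : St p K X A W) (ha : a ∈ A) (n : a ∉ 𝐍 K) (hb : b ∈ A) (nb : b ∈ 𝐍 K)
    (b1 : b ≠ 1) (m : b ∈ Mo W a) (hx : x ∈ K) :
    ∃ y ∈ 𝐍 W ⊓ 𝐂 K, x * y * a = a * (x * y) ∧ x * y ∈ Mo W a := by
  set Y := 𝐍 W ⊓ 𝐂 K
  set D := (𝐂₁ a ⊓ Mo W a) ⊓ (𝐍 W ⊓ 𝐍 K)
  have nY : 𝐍 W ⊓ 𝐍 K ≤ 𝐍 Y :=
    norm_inf (inf_le_left.trans (le_norm_self _)) (norm_cent inf_le_right)
  have nM : K ≤ 𝐍 (D ⊔ Y) := fun z hz => by
    obtain ⟨y, hy, e⟩ := s.dpow ha n hz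
    have h1 : z * y ∈ 𝐍 W ⊓ 𝐍 K :=
      mul_mem ⟨s.kw hz, le_norm_self _ hz⟩ ⟨hy.1, cent_le_norm _ hy.2⟩
    have h2 : z * y ∈ 𝐍 (D ⊔ Y) := zpowers_le.1 <| norm_sup (norm_inf (norm_inf
      (norm_of_le (zpowers_le.2 (mem_cent1.2 e))) (zpowers_le.2 (norm_Mo h1.1 e)))
      (norm_of_le (zpowers_le.2 h1))) (zpowers_le.2 (nY h1))
    simpa using mul_mem h2 (inv_mem (le_norm_self _ (mem_sup_right hy)))
  rcases key s.k nM nb (one_mem _) (mem_sup_left (show b * 1 ∈ D by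
    rw [mul_one]; exact ⟨⟨mem_cent1.2 (s.ea.abel.mul_comm hb ha), m⟩, s.aw hb, nb⟩)) with c | c
  · exact (b1 (s.f b hb c)).elim
  obtain ⟨d, hd, y, hy, e⟩ := (mem_sup_norm (inf_le_right.trans nY)).1 (c hx)
  have : x * y⁻¹ = d := by rw [← e, mul_inv_cancel_right]
  exact ⟨y⁻¹, inv_mem hy, this ▸ mem_cent1.1 hd.1.1, this ▸ hd.1.2⟩

theorem o1 (s : St p K X A W) (p2 : p ≠ 2) (ha : a ∈ A) (n : a ∉ 𝐍 K) (hb : b ∈ A) (nb : b ∈ 𝐍 K)
    (b1 : b ≠ 1) (m : b ∈ Mo W a) : K ≤ 𝐂 W := by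
  have a1 : a ≠ 1 := fun e => n (e ▸ one_mem _)
  have ab := s.ew.abel
  obtain ⟨x, hx, xc⟩ := s.nc
  obtain ⟨y, hy, e, md⟩ := s.diag ha n hb nb b1 m hx
  have dW := mul_mem (s.kw hx) hy.1
  have xd : x * (x * y) = x * y * x := by rw [mul_assoc, hy.2 x hx]
  have m1 := swap ab dW (s.aw ha) e md
  set u := x * (a * x⁻¹ * a⁻¹) with hu
  have uW : u ∈ 𝐍 W := mul_mem (s.kw hx) ((s.cj ha).kw (conj_mem_cj.2 (inv_mem hx)))
  have m2 : u ∈ Mo W (x * y) := by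
    simpa [hu, mul_assoc] using mul_mem (conj_mem_of_norm (norm_Mo (s.kw hx) xd) m1) (inv_mem m1)
  have m3 := swap ab uW dW ((Commute.mul_left xd (((Commute.symm e).mul_left
    (Commute.inv_left xd)).mul_left (Commute.symm e).inv_left)).eq) m2
  have ia := inv_mem ha
  have s3 := s.cj ia
  have c31 : cj a⁻¹ K ≤ 𝐂 K := fun z hz => by
    obtain ⟨v, hv, rfl⟩ := mem_cj_iff.1 hz
    exact s.c1 ia (by rwa [inv_mem_iff]) hv
  have c32 : cj a⁻¹ K ≤ 𝐂 (cj a K) := s.cc ia ha <| by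
    rw [← mul_inv_rev, inv_mem_iff, ← sq]
    exact s.nn ha n (npow_mem_zpowers _ _) (pow_ne_one_of_lt_orderOf (by omega) (by
      rw [s.ea.orderOf ha a1]; have := s.hp.two_le; omega))
  have n3 : cj a⁻¹ K ≤ 𝐍 (Mo W u) := fun z hz => norm_Mo (s3.kw hz) (mem_cent1.1 (mul_mem
    (mem_cent1.2 (c31 hz x hx)) (mem_cent1.2 (c32 hz _ (conj_mem_cj.2 (inv_mem hx)))))).symm
  have h3 : cj a⁻¹ K ≤ Mo W u := by
    refine (key (g := a⁻¹ * x * a⁻¹⁻¹) (w := a⁻¹ * y * a⁻¹⁻¹) s3.k n3 (le_norm_self _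
      (conj_mem_cj.2 hx)) (by rw [← cj_cent]; exact conj_mem_cj.2 hy.2) ?_).resolve_left ?_
    · convert m3 using 1
      calc _ = a⁻¹ * (x * y * a) := by group
        _ = _ := by rw [e]; group
    · rwa [← cj_cent, conj_mem_cj]
  have nS : K ≤ 𝐍 ⁅cj a⁻¹ K, W⁆ := norm_commutator (norm_of_cent' c31) s.kw
  have h4 : K ≤ 𝐂 ⁅cj a⁻¹ K, W⁆ := (key s.k (norm_cent nS) (le_norm_self _ hx)
    (s.c1 ha n (inv_mem hx)) (le_cent1_iff.1 ((le_centMod.1 h3).2.trans inf_le_right))).resolve_left xc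
  have nb0 : b ∈ 𝐍 ⁅K, W⁆ := zpowers_le.1 (norm_commutator (zpowers_le.2 nb) (zpowers_le.2 (s.aw hb)))
  have nbS : b ∈ 𝐍 ⁅cj a⁻¹ K, W⁆ := zpowers_le.1
    (norm_commutator (zpowers_le.2 ((s.ncj ia hb).2 nb)) (zpowers_le.2 (s.aw hb)))
  have le0 : ⁅K, W⁆ ≤ W := comm_le_right s.kw
  have m5 := (mem_Mo (s.aw ia)).1 (inv_mem (swap ab (s.aw hb) (s.aw ha)
    (s.ea.abel.mul_comm hb ha) m))
  have h5 : b * 1 ∈ centMod ⁅K, W⁆ (⁅K, W⁆ ⊓ 𝐂 K) := by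
    rw [mul_one]
    refine mem_cm inf_le_left fun w hw => ⟨cmem nb0 hw, cent_symm h4 ?_⟩
    have hw' : a⁻¹ * w * a⁻¹⁻¹ ∈ ⁅cj a⁻¹ K, W⁆ := by
      rw [← cj_of_norm (s.aw ia), ← cj_comm]; exact conj_mem_cj.2 hw
    have wW := le0 hw
    have f := m5 w wW
    rw [commutatorElement_def] at f
    generalize a⁻¹ * w * a⁻¹⁻¹ = v at hw' f
    have vW := comm_le_right s3.kw hw'
    convert mul_mem (inv_mem hw') (conj_mem_of_norm nbS hw') using 1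
    calc ⁅b, w⁆ = w⁻¹ * (b * w * b⁻¹) := by
          rw [ab.mul_comm (inv_mem wW) (conj_mem_of_norm (s.aw hb) wW), commutatorElement_def]
      _ = v⁻¹ * (v * w⁻¹ * b) * w * b⁻¹ := by group
      _ = _ := by rw [f]; group
  rcases key s.k (norm_centMod (norm_comm_left _ _) (norm_inf (norm_comm_left _ _)
    (norm_cent (le_norm_self _)))) nb (one_mem _) h5 with c | c
  · exact (b1 (s.f b hb c)).elim
  have h6 := cent_of_perfect s.k.perfect (N := ⁅K, W⁆)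
    (by rw [commutator_comm]; exact (le_centMod.1 c).2.trans inf_le_right)
  exact cent_symm (cent_of_perfect s.k.perfect (by rwa [commutator_comm]))

theorem o2 (s : St p K X A W) (p2 : p ≠ 2) (hb : b ∈ A) (n : b ∉ 𝐍 K) (m : b ∈ Mo W b) :
    K ≤ 𝐂 W := by
  by_contra hK
  haveI := Fact.mk s.hp
  refine sol2 (p := p) (q := 2) s.k fun r hr rp r2 x hx px => ?_
  have zb : zpowers b ≤ A := zpowers_le.2 hb
  have zx : zpowers x ≤ K := zpowers_le.2 hx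
  set E := sSup {Z | ∃ g ∈ zpowers b, cj g (zpowers x) = Z}
  have pE : PiGrp {r} E := piGrp_sSup (L := E) <| by
    rintro _ ⟨g, hg, rfl⟩
    refine ⟨⟨le_sSup ⟨g, hg, rfl⟩, norm_of_cent (sSup_le ?_)⟩, px.zpowers.cj g⟩
    rintro _ ⟨h, hh, rfl⟩
    by_cases e : g⁻¹ * h = 1
    · rw [inv_mul_eq_one.1 e]; exact abel_cj.2 (abel_zpowers x)
    exact cent_mono (s.cc (zb hh) (zb hg) (s.nn hb n (mul_mem (inv_mem hg) hh) e))
      (cj_mono _ zx) (cj_mono _ zx)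
  have nE : zpowers b ≤ 𝐍 E := le_norm_of_cj_le fun g hg => cj_le_iff.2 <| sSup_le <| by
    rintro _ ⟨h, hh, rfl⟩
    rw [← cj_le_iff, cj_cj]
    exact le_sSup ⟨_, mul_mem hg hh, rfl⟩
  have xE : x ∈ E := le_sSup (s := {Z | ∃ g ∈ zpowers b, cj g (zpowers x) = Z})
    ⟨1, one_mem _, rfl⟩ (by rw [cj_of_mem (one_mem _)]; exact mem_zpowers x)
  have pc : PiGrp {2}ᶜ (closure {b, x * b * x⁻¹}) :=
    ((pE.of_single_ne r2).sup ((s.ea.pi.le zb).of_single_ne p2) (.inr nE)).le <| by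
      have h1 : b ∈ E ⊔ zpowers b := mem_sup_right (mem_zpowers b)
      have h2 : x ∈ E ⊔ zpowers b := mem_sup_left xE
      rw [closure_le]
      rintro _ (rfl | rfl)
      exacts [h1, mul_mem (mul_mem h2 h1) (inv_mem h2)]
  have q1 : ∀ w ∈ W, ⁅b, ⁅b, w⁆⁆ = 1 := fun w hw =>
    commutatorElement_eq_one_iff_mul_comm.2 ((mem_Mo (s.aw hb)).1 m w hw).symm
  have cb := s.c1 hb n (inv_mem hx)
  have := BG2.mem_centralizer_of_quadratic_elem s.ew.isEA (s.aw hb)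
    (mul_mem (mul_mem (s.kw hx) (s.aw hb)) (inv_mem (s.kw hx)))
    (Nat.coprime_two_right.1 ((piNat_compl_single_iff_coprime Nat.prime_two).1 pc)) q1
    (fun w hw => by
      have := q1 _ (conj_mem_of_norm' (s.kw hx) hw)
      calc _ = x * ⁅b, ⁅b, x⁻¹ * w * x⁆⁆ * x⁻¹ := by simp only [commutatorElement_def]; group
        _ = 1 := by rw [this]; group)
    (g := x * (b * x⁻¹ * b⁻¹)) (by
      simpa [mul_assoc] using mul_mem (subset_closure (k := {b, x * b * x⁻¹}) (.inr rfl))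
        (inv_mem (subset_closure (k := {b, x * b * x⁻¹}) (.inl rfl))))
    ((piNat_compl_single_iff_coprime s.hp).1
      ((px.mul (px.inv.conj b) (cb x hx)).of_single' (by simpa using rp)))
  exact (key s.k (norm_cent s.kw) (le_norm_self _ hx) cb this).resolve_right hK

end St
end CF.PV
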