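/-
The P(G,V)-theorem, part 2: characteristic two and the theorem.
-/
import Cfsg.Agent.Loc.PV1
import Mathlib.GroupTheory.FiniteAbelian.Duality
import Mathlib.RingTheory.RootsOfUnity.AlgebraicallyClosed
import Mathlib.Analysis.Complex.Polynomial.Basic
set_option autoImplicit false
set_option linter.unusedSectionVars false

namespace CF.PV
open Subgroup Cfsg CF.BG CF.Sig
open scoped commutatorElement

variable {G : Type*} [Group G] [Finite G] {A B K M T U V W X : Subgroup G} {a a' b d g h u w x y : G}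
  {p q : ℕ}

/-- pairwise supplementary subgroups of index at least four in an abelian group -/
theorem count {ι : Type*} (ab : Abel W) (s : Finset ι) (F : ι → Subgroup G)
    (t : ∀ i ∈ s, T ≤ F i) (c : ∀ i ∈ s, 4 ≤ (F i).relIndex W)
    (d : ∀ i ∈ s, ∀ j ∈ s, i ≠ j → W ≤ F i ⊓ W ⊔ F j ⊓ W) : 3 * s.card + 1 ≤ T.relIndex W := by
  classical
  letI : CommGroup W := { (inferInstance : Group W) with
    mul_comm := fun x y => Subtype.ext (ab.mul_comm x.2 y.2) }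
  haveI : NeZero ((Monoid.exponent W : ℕ) : ℂ) := ⟨Nat.cast_ne_zero.2 Monoid.exponent_ne_zero_of_finite⟩
  haveI : Finite (W →* ℂˣ) := Nat.finite_of_card_ne_zero (by
    rw [CommGroup.card_monoidHom_of_hasEnoughRootsOfUnity]; exact Nat.card_pos.ne')
  haveI := Fintype.ofFinite (W →* ℂˣ)
  let Φ : Subgroup G → Subgroup (W →* ℂˣ) := fun U => (MonoidHom.domRestrictHom (U.subgroupOf W) ℂˣ).ker
  have mem : ∀ U φ, φ ∈ Φ U ↔ ∀ x : W, x.1 ∈ U → φ x = 1 := fun U φ =>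
    ⟨fun h x hx => DFunLike.congr_fun h ⟨x, hx⟩, fun h => MonoidHom.ext fun x => h x.1 x.2⟩
  have cd : ∀ U, (Φ U : Set (W →* ℂˣ)).toFinset.card = U.relIndex W := fun U => by
    rw [← Set.ncard_eq_toFinset_card', ← Nat.card_coe_set_eq]
    exact CommGroup.card_domRestrictHom_ker ℂ _
  let E : Subgroup G → Finset (W →* ℂˣ) := fun U => (Φ U : Set (W →* ℂˣ)).toFinset.erase 1
  have ce : ∀ U, (E U).card + 1 = U.relIndex W := fun U => by
    rw [← cd, Finset.card_erase_add_one (by simp)]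
  have h1 : s.biUnion (fun i => E (F i)) ⊆ E T := Finset.biUnion_subset.2 fun i hi =>
    Finset.erase_subset_erase _ (Set.toFinset_mono fun φ h =>
      (mem _ _).2 fun x hx => (mem _ _).1 h x (t i hi hx))
  have h2 := Finset.card_le_card h1
  rw [Finset.card_biUnion] at h2
  · have := Finset.card_nsmul_le_sum s (fun i => (E (F i)).card) 3 fun i hi => by
      have := ce (F i); have := c i hi; omega
    rw [← ce, smul_eq_mul] at *; omega
  intro i hi j hj n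
  refine Finset.disjoint_left.2 fun φ (h : φ ∈ E _) (k : φ ∈ E _) => (Finset.mem_erase.1 h).1 (MonoidHom.ext fun x => ?_)
  obtain ⟨y, hy, z, hz, e⟩ := (mem_sup_norm (norm_of_cent (ab.cent inf_le_right inf_le_right))).1
    (d i hi j hj n x.2)
  rw [show x = ⟨y, hy.2⟩ * ⟨z, hz.2⟩ from Subtype.ext e.symm, map_mul,
    (mem _ _).1 (Set.mem_toFinset.1 (Finset.mem_erase.1 h).2) _ hy.1,
    (mem _ _).1 (Set.mem_toFinset.1 (Finset.mem_erase.1 k).2) _ hz.1]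
  simp

theorem le_idx (l : U ≤ W) {k : ℕ} (h : ♯W ≤ k * ♯U) : U.relIndex W ≤ k := by
  rw [← card_mul_relIndex l, mul_comm] at h
  exact Nat.le_of_mul_le_mul_right h (card_pos' U)

namespace St

theorem tv (s : St 2 K X A W) (ha : a ∈ A) (n : a ∉ 𝐍 K) (c : ♯W ≤ 2 * ♯(W ⊓ 𝐂₁ a)) :
    K ≤ 𝐂 W := by
  by_contra hK
  refine sol2 (p := 2) (q := 3) s.k fun r hr r2 r3 x hx px => ?_
  have cb := s.c1 ha n (inv_mem hx)
  refine (key s.k (norm_cent s.kw) (le_norm_self _ hx) cb ?_).resolve_right hK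
  set y := x * (a * x⁻¹ * a⁻¹) with hy
  have py : PiElt {r} y := px.mul (px.inv.conj a) (cb x hx)
  have yW : y ∈ 𝐍 W := mul_mem (s.kw hx) ((s.cj ha).kw (conj_mem_cj.2 (inv_mem hx)))
  have md := BG2.card_modEq_card_cent hr py.zpowers (zpowers_le.2 yW)
  rw [cent_zpowers] at md
  set U := W ⊓ 𝐂₁ a
  have lU : cj x U ≤ W := cj_le_of_norm (s.kw hx) inf_le_left
  have h1 := card_sup_mul_card_inf (H := U) (K := cj x U)
    (.inl (norm_of_cent (s.ew.abel.cent inf_le_left lU)))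
  have h2 : U ⊓ cj x U ≤ W ⊓ 𝐂₁ y := fun v hv => ⟨hv.1.1, mem_cent1_comm.1 <| by
    have := hv.2
    rw [cj_inf, cj_cent1] at this
    simpa [hy, mul_assoc] using mul_mem (mem_cent1_comm.1 this.2) (inv_mem (mem_cent1_comm.1 hv.1.2))⟩
  have h3 : (W ⊓ 𝐂₁ y).relIndex W ≤ 4 := le_idx inf_le_left <| by
    rw [cj_def x U, card_map (conj_inj x), ← cj_def] at h1
    have := card_le h2
    have := card_le (sup_le inf_le_left lU : U ⊔ cj x U ≤ W)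
    refine Nat.le_of_mul_le_mul_left ?_ (card_pos' W)
    calc ♯W * ♯W ≤ 2 * ♯U * (2 * ♯U) := Nat.mul_le_mul c c
      _ = 4 * (♯(U ⊔ cj x U) * ♯(U ⊓ cj x U)) := by rw [h1]; ring
      _ ≤ 4 * (♯W * ♯(W ⊓ 𝐂₁ y)) := by gcongr
      _ = _ := by ring
  have h4 := relIndex_pos (W ⊓ 𝐂₁ y) W
  rw [← card_mul_relIndex (inf_le_left : W ⊓ 𝐂₁ y ≤ W)] at md
  have h5 := (Nat.modEq_iff_dvd' (Nat.le_mul_of_pos_right _ h4)).1 md.symm
  rw [← Nat.mul_sub_one, hr.dvd_mul] at h5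
  rcases h5 with h5 | h5
  · exact (r2 (s.ew.pi.inf_left r hr h5)).elim
  have h6 : (W ⊓ 𝐂₁ y).relIndex W = 1 := by
    by_contra e
    have := Nat.le_of_dvd (by omega) h5
    have := hr.two_le
    omega
  exact le_cent1_iff.1 ((relIndex_eq_one.1 h6).trans inf_le_right)

theorem mo2 (s : St 2 K X A W) (ha : a ∈ A) : a ∈ Mo W a := (mem_Mo (s.aw ha)).2 fun w hw => by
  have e : a⁻¹ = a := inv_eq_of_mul_eq_one_left (by rw [← sq, s.ea.pow a ha])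
  have f : w⁻¹ = w := inv_eq_of_mul_eq_one_left (by rw [← sq, s.ew.pow w hw])
  have c := s.ew.abel.mul_comm (conj_mem_of_norm (s.aw ha) hw) hw
  rw [commutatorElement_def, f]
  calc _ = w * a * w := by rw [c]; group
    _ = a * a⁻¹ * w * a⁻¹ * w := by rw [mul_inv_cancel, e]; group
    _ = _ := by nth_rewrite 1 [e]; group

theorem phi (s : St 2 K X A W) (ha : a ∈ A) (n : a ∉ 𝐍 K) (hx : x ∈ K) :
    x * (a * x * a⁻¹) * a = a * (x * (a * x * a⁻¹)) := by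
  have e : a⁻¹ = a := inv_eq_of_mul_eq_one_left (by rw [← sq, s.ea.pow a ha])
  conv_rhs => rw [s.c1 ha n hx x hx]
  calc _ = x * a * x * 1 := by group
    _ = a * a⁻¹ * x * a⁻¹ * x := by rw [mul_inv_cancel, e]; group
    _ = _ := by nth_rewrite 1 [e]; group

theorem weak (s : St 2 K X A W) (ha : a ∈ A) (n : a ∉ 𝐍 K) (hb : b ∈ A) (b1 : b ≠ 1) (ba : b ≠ a)
    (m : b ∈ Mo W a) (hx : x ∈ K) :
    ∃ y ∈ 𝐍 W ⊓ 𝐂 K, x * y * a = a * (x * y) ∧ x * y ∈ Mo W a := by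
  by_cases nb : b ∈ 𝐍 K
  · exact s.diag ha n hb nb b1 m hx
  by_cases nab : b * a ∈ 𝐍 K
  · refine s.diag ha n (mul_mem hb ha) nab (fun e => ba ?_) (mul_mem m (s.mo2 ha)) hx
    rw [eq_inv_of_mul_eq_one_left e]
    exact inv_eq_of_mul_eq_one_left (by rw [← sq, s.ea.pow a ha])
  have e := s.phi ha n hx
  have dW := mul_mem (s.kw hx) ((s.cj ha).kw (conj_mem_cj.2 hx))
  have f : x * (a * x * a⁻¹ * (b * (x * (a * x * a⁻¹))⁻¹ * b⁻¹)) =
      x * (a * x * a⁻¹) * b * (x * (a * x * a⁻¹))⁻¹ * b⁻¹ := by group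
  refine ⟨_, ⟨?_, mul_mem (s.c1 ha n hx) ?_⟩, ?_, f ▸
    mul_mem (conj_mem_of_norm (norm_Mo dW e) m) (inv_mem m)⟩
  · exact (mul_mem ((s.cj ha).kw (conj_mem_cj.2 hx))
      (mul_mem (mul_mem (s.aw hb) (inv_mem dW)) (inv_mem (s.aw hb))) : _ ∈ 𝐍 W)
  · change _ ∈ 𝐂 K
    convert mul_mem (s.c1 (mul_mem hb ha) nab (inv_mem hx)) (s.c1 hb nb (inv_mem hx)) using 1
    group
  have h1 := mem_cent1.2 e
  have h2 := mem_cent1.2 (s.ea.abel.mul_comm hb ha)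
  exact f ▸ mem_cent1.1 (mul_mem (mul_mem (mul_mem h1 h2) (inv_mem h1)) (inv_mem h2))

theorem strong (s : St 2 K X A W) (ha : a ∈ A) (n : a ∉ 𝐍 K) (hb : b ∈ A) (b1 : b ≠ 1) (ba : b ≠ a)
    (m : b ∈ Mo W a) (hx : x ∈ K) : x * (a * x * a⁻¹) ∈ Mo W a := by
  let φ : K →* G := MonoidHom.mk' (fun x => x * (a * x * a⁻¹)) fun x y => by
    calc _ = x * (y * (a * x * a⁻¹)) * (a * y * a⁻¹) := by push_cast; group
      _ = _ := by rw [s.c1 ha n x.2 y y.2]; group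
  suffices h : ⁅K, K⁆ ≤ ((Mo W a).comap φ).map K.subtype by
    obtain ⟨y, hy, rfl⟩ := h (s.k.perfect.symm ▸ hx)
    exact hy
  refine commutator_le.2 fun x hx z hz => ⟨⁅(⟨x, hx⟩ : K), ⟨z, hz⟩⁆, ?_, rfl⟩
  obtain ⟨y, hy, e, md⟩ := s.weak ha n hb b1 ba m hx
  have h1 := norm_Mo (mul_mem (s.kw hz) ((s.cj ha).kw (conj_mem_cj.2 hz))) (s.phi ha n hz)
  have c1 : (a * x * a⁻¹)⁻¹ * y ∈ 𝐂₁ z :=
    cent_le_cent1 hz (mul_mem (inv_mem (s.c1 ha n hx)) hy.2)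
  have c2 : (a * x * a⁻¹)⁻¹ * y ∈ 𝐂₁ (a * z * a⁻¹) := by
    have : (a * x * a⁻¹)⁻¹ * y = x⁻¹ * (a * y * a⁻¹) := by
      calc _ = (x * (a * x * a⁻¹))⁻¹ * (x * y * a) * a⁻¹ := by group
        _ = (a * x * a⁻¹ * x)⁻¹ * (a * (x * y)) * a⁻¹ := by rw [e, s.c1 ha n hx x hx]
        _ = _ := by group
    rw [this]
    refine mul_mem (inv_mem (mem_cent1.2 (s.c1 ha n hz x hx))) ?_
    rw [← cj_cent1]; exact conj_mem_cj.2 (cent_le_cent1 hz hy.2)
  have c3 := mem_cent1.1 (mul_mem (mem_cent1_comm.1 c1) (mem_cent1_comm.1 c2))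
  change φ _ ∈ Mo W a
  rw [map_commutatorElement]
  convert mul_mem md (conj_mem_of_norm h1 (inv_mem md)) using 1
  change ⁅x * (a * x * a⁻¹), z * (a * z * a⁻¹)⁆ = _
  generalize z * (a * z * a⁻¹) = v at c3 ⊢
  calc _ = x * (a * x * a⁻¹) * (v * ((a * x * a⁻¹)⁻¹ * y)) * (x * y)⁻¹ * v⁻¹ := by
        rw [commutatorElement_def]; group
    _ = _ := by rw [c3]; group

theorem two (s : St 2 K X A W) (ha : a ∈ A) (n : a ∉ 𝐍 K) (ha' : a' ∈ A) (n' : a' ∉ 𝐍 K)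
    (ne : a ≠ a') (h : ∀ g ∈ A, ∀ x ∈ cj g K, x * (a * x * a⁻¹) ∈ M ∧ x * (a' * x * a'⁻¹) ∈ M) :
    K ≤ M := by
  have h1 : ∀ x ∈ K, x * (a * x * a⁻¹) ∈ M ∧ x * (a' * x * a'⁻¹) ∈ M := fun x hx =>
    h 1 (one_mem _) x (by rwa [cj_of_mem (one_mem _)])
  by_cases c : a'⁻¹ * a ∈ 𝐍 K
  · have nM : K ≤ 𝐍 (K ⊓ M) := le_norm_iff.2 fun z hz v hv =>
      ⟨conj_mem_of_norm (le_norm_self _ hz) hv.1, show _ ∈ M by
        have := mul_mem (mul_mem (h1 z hz).1 hv.2) (inv_mem (h1 z hz).1)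
        rw [mul_assoc z, ← s.c1 ha n hz v hv.1] at this
        convert this using 1; group⟩
    have e : a * a = 1 := by rw [← sq, s.ea.pow a ha]
    have e' : a'⁻¹ = a' := inv_eq_of_mul_eq_one_left (by rw [← sq, s.ea.pow a' ha'])
    refine ((key0 s.k nM c fun x hx => mem_inf.2 ⟨?_, ?_⟩).resolve_left fun k =>
      ne (inv_mul_eq_one.1 (s.f _ (mul_mem (inv_mem ha') ha) k)).symm).trans inf_le_right
    · rw [commutatorElement_def, mul_assoc, mul_assoc, ← mul_assoc (a'⁻¹ * a)]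
      exact mul_mem hx (conj_mem_of_norm c (inv_mem hx))
    obtain ⟨k1, k2⟩ := h a ha _ (conj_mem_cj.2 (inv_mem hx))
    convert mul_mem (inv_mem k1) k2 using 1
    calc _ = a * a * x * (a * a)⁻¹ * (a' * a * x⁻¹ * (a' * a)⁻¹) := by
          rw [e, e', commutatorElement_def]; group
      _ = _ := by simp only [mul_inv_rev, inv_inv, mul_assoc, mul_inv_cancel_left, inv_mul_cancel_left]
  rw [← s.k.perfect]
  refine commutator_le.2 fun x hx z hz => ?_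
  have k1 := (h1 x hx).1
  have k2 := (h1 z hz).2
  convert mul_mem (mul_mem (mul_mem k1 k2) (inv_mem k1)) (inv_mem k2) using 1
  have c1 := s.c1 ha n hx
  have c2 := s.c1 ha' n' hz
  have c3 := s.cc ha ha' c (conj_mem_cj.2 hx) _ (conj_mem_cj.2 hz)
  generalize a * x * a⁻¹ = u at *
  generalize a' * z * a'⁻¹ = v at *
  rw [mul_assoc x u, ← mul_assoc u, ← c1 z hz, mul_assoc z u, ← c3, commutatorElement_def]
  calc _ = x * z * (x⁻¹ * v) * (z * v)⁻¹ := by group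
    _ = _ := by rw [c2 _ (inv_mem hx)]; group

theorem main (s : St p K X A W) (best : ∀ B ≤ A, ♯B * ♯(W ⊓ 𝐂 B) ≤ ♯A * ♯(W ⊓ 𝐂 A))
    (mn : ∀ T, (∀ g ∈ A, cj g K ≤ centMod W T) → W ≤ T) (na : ¬ A ≤ 𝐍 K) : K ≤ 𝐂 W := by
  classical
  haveI := Fact.mk s.hp
  by_contra hK
  obtain ⟨a, ha, n⟩ := SetLike.not_le_iff_exists.1 na
  obtain ⟨⟨b1, -⟩, -, b3⟩ := PLocal.timmesfeld s.ew.isEA s.aw ⟨best, by
    rw [der_eq_bot.2 s.ea.abel]; exact bot_le, fun a ha => s.ea.pow a ha ▸ one_mem _⟩ le_rfl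
  set B := A ⊓ 𝐂 ⁅W, A⁆
  have B1 : B ≠ ⊥ := fun e => b3 (fun f => ?_) (by rw [e, commutator_bot_right])
  pick_goal 2
  · obtain ⟨x, hx, xc⟩ := s.nc
    have := comm_eq_bot'.1 f ha
    refine xc ((key s.k (norm_cent s.kw) (le_norm_self _ hx) (s.c1 ha n (inv_mem hx)) ?_).resolve_right hK)
    simpa [mul_assoc] using mul_mem (conj_mem_of_norm (norm_cent s.kw hx) this) (inv_mem this)
  have mo : ∀ b ∈ B, ∀ a ∈ A, b ∈ Mo W a := fun b hb a ha =>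
    swap s.ew.abel (s.aw ha) (s.aw hb.1) (s.ea.abel.mul_comm ha hb.1) ((mem_Mo (s.aw ha)).2
      fun w hw => hb.2 _ (commutator_comm W A ▸ commutator_mem_commutator ha hw))
  by_cases p2 : p = 2
  swap
  · obtain ⟨b, hb, b1⟩ := exists_mem_ne_one B1
    by_cases nb : b ∈ 𝐍 K
    exacts [hK (s.o1 p2 ha n hb.1 nb b1 (mo b hb a ha)), hK (s.o2 p2 hb.1 nb (mo b hb b hb.1))]
  subst p2
  have ex : ∀ a ∈ A, a ∉ 𝐍 K → ∃ b ∈ B, b ≠ 1 ∧ b ≠ a := fun a ha n => by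
    by_contra! h
    have a1 : a ≠ 1 := fun e => n (e ▸ one_mem _)
    have c := s.ea.card_zpowers ha a1
    have e : B = zpowers a := eq_of_prime_of_ne_bot (c ▸ Nat.prime_two) (fun b hb => by
      by_cases e : b = 1
      exacts [e ▸ one_mem _, h b hb e ▸ mem_zpowers _]) B1
    have := b1 ⊥ bot_le
    rw [e, c, cent_zpowers, inf_of_le_left (cent_symm bot_le), card_bot, one_mul] at this
    exact hK (s.tv ha n this)
  let S := (A : Set G).toFinite.toFinset.filter (· ∉ 𝐍 K)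
  have mS : ∀ a, a ∈ S ↔ a ∈ A ∧ a ∉ 𝐍 K := fun a => by simp [S]
  have h1 := count (T := 𝐂 A) s.ew.abel S (fun a => 𝐂₁ a) (fun a h => cent_le_cent1 ((mS a).1 h).1)
    (fun a h => ?_) fun a h a' h' ne => ?_
  · have h2 := best ⊥ bot_le
    rw [inf_of_le_left (cent_symm bot_le), card_bot, one_mul] at h2
    have h3 := le_idx inf_le_left h2
    rw [inf_relIndex_left] at h3
    have h4 := Finset.card_filter_add_card_filter_not (s := (A : Set G).toFinite.toFinset) (· ∈ 𝐍 K)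
    have h5 : ((A : Set G).toFinite.toFinset.filter (· ∈ 𝐍 K)).card = ♯(𝐍 K ⊓ A) := by
      rw [← Set.ncard_coe_finset, ← Nat.card_coe_set_eq]
      exact Nat.card_congr (Equiv.subtypeEquivRight fun x => by simp [and_comm])
    have h6 := card_inf_mul_relIndex (𝐍 K) A
    have h7 : (𝐍 K).relIndex A ≠ 1 := fun e => na (relIndex_eq_one.1 e)
    have h8 := Nat.mul_le_mul_left (♯(𝐍 K ⊓ A)) (show 2 ≤ (𝐍 K).relIndex A by
      have := relIndex_pos (𝐍 K) A; omega)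
    rw [← Set.ncard_eq_toFinset_card, ← Nat.card_coe_set_eq, h5] at h4
    change _ + S.card = ♯A at h4
    omega
  · obtain ⟨ha, n⟩ := (mS a).1 h
    have h2 := mt (s.tv ha n) hK
    have h3 := s.ew.pi.relIndex (𝐂₁ a) 3 Nat.prime_three
    rw [← card_inf_mul_relIndex (𝐂₁ a) W, inf_comm W, mul_comm] at h2
    by_contra! l
    rcases (by omega : (𝐂₁ a).relIndex W = 3 ∨ (𝐂₁ a).relIndex W ≤ 2) with e | e
    · exact absurd (h3 (e ▸ dvd_rfl)) (by simp)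
    exact h2 (Nat.mul_le_mul_right _ e)
  obtain ⟨ha, n⟩ := (mS a).1 h
  obtain ⟨ha', n'⟩ := (mS a').1 h'
  have lT : 𝐂₁ a ⊓ W ⊔ 𝐂₁ a' ⊓ W ≤ W := sup_le inf_le_right inf_le_right
  refine mn _ fun g hg => (s.cj hg).two ha (mt (s.ncj hg ha).1 n) ha' (mt (s.ncj hg ha').1 n') ne
    fun h hh x hx => ?_
  have t := (s.cj hg).cj hh
  have nn : ∀ a ∈ A, a ∉ 𝐍 K → a ∉ 𝐍 (cj h (cj g K)) := fun a ha n =>
    mt (fun k => (s.ncj hg ha).1 (((s.cj hg).ncj hh ha).1 k)) n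
  obtain ⟨b, hb, b1, ba⟩ := ex a ha n
  obtain ⟨b', hb', b1', ba'⟩ := ex a' ha' n'
  exact ⟨mem_cm lT fun w hw => mem_sup_left ((mem_centMod.1 (t.strong ha (nn a ha n) hb.1 b1 ba
      (mo b hb a ha) hx)).2 w hw).symm,
    mem_cm lT fun w hw => mem_sup_right ((mem_centMod.1 (t.strong ha' (nn a' ha' n') hb'.1 b1' ba'
      (mo b' hb' a' ha') hx)).2 w hw).symm⟩

end St

/-- the `P(G,V)`-theorem in an ambient group -/
theorem pgv (hp : p.Prime) (k : Comp K X) (ax : A ≤ X) (ea : Abelem p A) (ev : Abelem p V)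
    (xv : X ≤ 𝐍 V) (f : ¬ K ≤ 𝐂 V) (best : ∀ B ≤ A, ♯B * ♯(V ⊓ 𝐂 B) ≤ ♯A * ♯(V ⊓ 𝐂 A)) :
    A ≤ 𝐍 K := by
  by_contra na
  obtain ⟨A', dp⟩ := ea.exists_compl (inf_le_left : A ⊓ 𝐂 K ≤ A)
  set C := A ⊓ 𝐂 K
  have kv := k.le.trans xv
  have cK : C ≤ 𝐂 K := inf_le_right
  obtain ⟨W, -, ⟨wU, aw, kw, nk⟩, mn⟩ := exists_minimal
    (P := fun W => W ≤ V ⊓ 𝐂 C ∧ A ≤ 𝐍 W ∧ K ≤ 𝐍 W ∧ ¬ K ≤ 𝐂 W) (H := V ⊓ 𝐂 C)
    ⟨le_rfl, norm_inf_cent (ax.trans xv) (ea.abel.le_norm inf_le_left),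
      norm_inf_cent kv (norm_of_cent' cK), fun c => f (le_of_pi'_elts (p := p) k.perfect (norm_cent kv)
        fun x hx px => zpowers_le.1 (cent_of_pxq (ea.pi.le dp.left_le) ev.pi px.zpowers
          (cK.trans (cent_anti (zpowers_le.2 hx))) (dp.left_le.trans (ax.trans xv))
          (zpowers_le.2 (kv hx)) (cent_symm ((zpowers_le.2 hx).trans c))))⟩
  have wV := wU.trans inf_le_left
  have wC := wU.trans inf_le_right
  have s : St p K X A' W := ⟨hp, k, dp.right_le.trans (ax.trans (le_norm_self _)), ea.le dp.right_le,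
    ev.le wV, dp.right_le.trans aw, kw, fun a ha c => eq_one_of_mem_bot dp.inf ⟨⟨dp.right_le ha, c⟩, ha⟩⟩
  refine nk (s.main (fun B hB => ?_) (fun T h => ?_) fun h => na (dp.sup.ge.trans (sup_le (norm_of_cent cK) h)))
  · have h1 := best (C ⊔ B) (sup_le dp.left_le (hB.trans dp.right_le))
    have l : V ⊓ 𝐂 A ≤ V ⊓ 𝐂 (C ⊔ B) :=
      inf_le_inf_left _ (cent_anti (sup_le dp.left_le (hB.trans dp.right_le)))
    have l2 : W ⊓ 𝐂 B ≤ V ⊓ 𝐂 (C ⊔ B) :=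
      le_inf (inf_le_left.trans wV) (le_cent_sup (inf_le_left.trans wC) inf_le_right)
    have h2 := card_sup_mul_card_inf (H := W ⊓ 𝐂 B) (K := V ⊓ 𝐂 A)
      (.inl (norm_of_cent (ev.abel.cent (inf_le_left.trans wV) inf_le_left)))
    have h3 := card_le (sup_le l2 l)
    have h4 := card_le (show (W ⊓ 𝐂 B) ⊓ (V ⊓ 𝐂 A) ≤ W ⊓ 𝐂 A' from
      inf_le_inf inf_le_left (inf_le_right.trans (cent_anti dp.right_le)))
    rw [← dp.card, card_sup_of_inf_bot (.inr (norm_of_cent (hB.trans dp.cent)))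
      (eq_bot_mono dp.inf (inf_le_inf_left _ hB))] at h1
    refine Nat.le_of_mul_le_mul_left ?_ (Nat.mul_pos (card_pos' C) (card_pos' (V ⊓ 𝐂 A)))
    calc _ = ♯C * ♯B * (♯(W ⊓ 𝐂 B) * ♯(V ⊓ 𝐂 A)) := by ring
      _ ≤ ♯C * ♯B * (♯(V ⊓ 𝐂 (C ⊔ B)) * ♯(W ⊓ 𝐂 A')) := by rw [← h2]; gcongr
      _ ≤ ♯C * ♯A' * ♯(V ⊓ 𝐂 A) * ♯(W ⊓ 𝐂 A') := by rw [← mul_assoc]; gcongr
      _ = _ := by ring
  set L := sSup {Z | ∃ g ∈ A, cj g K = Z}
  have kL : K ≤ L := le_sSup ⟨1, one_mem _, cj_of_mem (one_mem _)⟩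
  have lW : L ≤ 𝐍 W := sSup_le <| by
    rintro _ ⟨g, hg, rfl⟩
    rw [← cj_of_norm (aw hg), ← cj_norm]; exact cj_mono _ kw
  have aL : A ≤ 𝐍 L := le_norm_of_cj_le fun g hg => cj_le_iff.2 <| sSup_le <| by
    rintro _ ⟨h, hh, rfl⟩
    rw [← cj_le_iff, cj_cj]
    exact le_sSup ⟨_, mul_mem hg hh, rfl⟩
  rw [← mn ⁅L, W⁆ ⟨(comm_le_right lW).trans wU, norm_commutator aL aw,
    norm_commutator (norm_of_le kL) kw, fun c => nk (cent_symm (cent_of_perfect k.perfect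
      (((commutator_comm W K).le.trans (commutator_mono kL le_rfl)).trans (cent_symm c))))⟩
      (comm_le_right lW)]
  refine (le_centMod.1 (sSup_le ?_)).2
  rintro _ ⟨g, hg, rfl⟩
  obtain ⟨a, ha, c, hc, rfl⟩ := dp.sdprod.exists_mul' hg
  rw [← cj_cj, cj_of_cent (cK hc)]
  exact h a ha

end CF.PV
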