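/-
An involution centraliser of shape `2₋^{1+4}.S₄`: the coded model.
-/
import Cfsg.Agent.Loc.Pg0
import Cfsg.Agent.XT.Wc
set_option autoImplicit false
set_option maxRecDepth 100000
set_option synthInstance.maxSize 100000
set_option synthInstance.maxHeartbeats 400000

namespace CF.Pg
open Subgroup CF.Comp CF.Cod CF.Loc CF.LX CF.Even

/-- a bit mask that describes a subgroup -/
def MOK (T : CT) [T.Grp] (m : ℕ) : Prop :=
  tb m (nat_lit 0) = true ∧ ∀ a : El T, tb m a.v = true → ∀ b : El T, tb m b.v = true → tb m (a * b⁻¹).v = true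

noncomputable instance (T : CT) [T.Grp] (m : ℕ) : Decidable (MOK T m) := inferInstanceAs (Decidable (_ ∧ _))

/-- the subgroup of a bit mask -/
def msub {T : CT} [T.Grp] {m : ℕ} (h : MOK T m) : Subgroup (El T) where
  carrier := {a | tb m a.v = true}
  one_mem' := h.1
  inv_mem' {a} ha := one_mul a⁻¹ ▸ h.2 1 h.1 a ha
  mul_mem' {a b} ha hb := inv_inv b ▸ h.2 a ha _ (one_mul b⁻¹ ▸ h.2 1 h.1 b hb)

noncomputable instance {T : CT} [T.Grp] {m : ℕ} (h : MOK T m) (a : El T) : Decidable (a ∈ msub h) :=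
  inferInstanceAs (Decidable (tb m a.v = true))

theorem card_msub {T : CT} [T.Grp] {m : ℕ} (h : MOK T m) : Nat.card (msub h) = El.cnt (· ∈ msub h) :=
  El.card_sub _ _ fun _ => Iff.rfl

/-- the extraspecial group -/
abbrev QT := El TQ
/-- the split extension by `S₄` -/
abbrev MT := El TM

theorem okQ : MOK TM mQ := by decide +kernel
theorem okA : MOK TM mA := by decide +kernel
theorem okB : MOK TM mB := by decide +kernel
theorem okT : MOK TM mT := by decide +kernel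
theorem okO : MOK TM mO := by decide +kernel

/-- `2₋^{1+4}` -/
noncomputable abbrev Q0 := msub okQ
/-- `2⁴` -/
noncomputable abbrev A0 := msub okA
/-- the second `2⁴` -/
noncomputable abbrev B0 := msub okB
/-- the group of order 64 -/
noncomputable abbrev T0 := msub okT
/-- the largest normal 2-subgroup -/
noncomputable abbrev O0 := msub okO

theorem card_Q0 : Nat.card Q0 = 32 := (card_msub _).trans (by decide +kernel)
theorem card_A0 : Nat.card A0 = 16 := (card_msub _).trans (by decide +kernel)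
theorem card_B0 : Nat.card B0 = 16 := (card_msub _).trans (by decide +kernel)
theorem card_T0 : Nat.card T0 = 64 := (card_msub _).trans (by decide +kernel)

noncomputable def a : MT := El.w [1, 3, 1, 3]
noncomputable def e0 : MT := El.w [1]
noncomputable def e2 : MT := El.w [5]
noncomputable def u0 : MT := El.w [1, 3, 5, 7]
noncomputable def r0 : MT := El.w [9, 11]
noncomputable def s0 : MT := El.w [9, 13]
noncomputable def p0 : MT := El.w [9]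

/-- the sign -/
noncomputable def χ : MT →* ℤˣ := pM.lift (f := fun i => if i < 4 then 1 else -1) (by decide +kernel)

/-- trivial modulo the centre -/
def Z1 (m : MT) : Prop := m = 1 ∨ m = a

noncomputable instance (m : MT) : Decidable (Z1 m) := inferInstanceAs (Decidable (_ ∨ _))

/-- an involution modulo the centre that maps to a double transposition -/
def VT (m : MT) : Prop := m ∈ O0 ∧ m ∉ Q0 ∧ Z1 (m * m)

noncomputable instance (m : MT) : Decidable (VT m) := inferInstanceAs (Decidable (_ ∧ _))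

theorem ac : ∀ m, m * a = a * m := by decide +kernel
theorem bas : a * a = 1 ∧ a ≠ 1 ∧ a ∈ Q0 ∧ e0 ∈ Q0 ∧ e0 ≠ 1 ∧ e0 ≠ a ∧ e0 * e0 = 1 ∧ u0 ∈ Q0 ∧ u0 ≠ 1 ∧ u0 ≠ a ∧
    u0 * u0 = 1 ∧ e0 * u0 * e0⁻¹ = a * u0 ∧ e0 * u0 ≠ u0 * e0 := by decide +kernel
theorem qsq : ∀ x ∈ Q0, Z1 (x * x) := by decide +kernel
theorem cen : ∀ m : MT, El.w [1] * m = m * El.w [1] → El.w [3] * m = m * El.w [3] → El.w [5] * m = m * El.w [5] →
    El.w [7] * m = m * El.w [7] → Z1 m := by decide +kernel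
theorem gen : (El.w [1] : MT) ∈ Q0 ∧ (El.w [3] : MT) ∈ Q0 ∧ (El.w [5] : MT) ∈ Q0 ∧ (El.w [7] : MT) ∈ Q0 := by
  decide +kernel
theorem nQ : ∀ x ∈ Q0, ∀ m, m * x * m⁻¹ ∈ Q0 := by decide +kernel
theorem nT : ∀ x ∈ T0, ∀ m, m * x * m⁻¹ ∈ T0 := by decide +kernel

theorem lq : LQ Q0 a := by
  have c : ∀ x, x ∈ 𝐂(Q0) → x = 1 ∨ x = a := fun x h =>
    cen x (h _ gen.1) (h _ gen.2.1) (h _ gen.2.2.1) (h _ gen.2.2.2)
  have o := orderOf_eq_prime (hp := ⟨Nat.prime_two⟩) ((pow_two a).trans bas.1) bas.2.1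
  refine ⟨⟨⟨bas.2.2.1, o, fun x _ => ac x, qsq, fun x _ h _ => c x h⟩, fun x _ => c x, fun h => ?_⟩, fun x h => ?_,
    fun m _ => mem_normalizer_fintype fun x h => nQ x h m⟩
  · exact ((mem_zpowers_invol o).1 (h bas.2.2.2.1)).elim bas.2.2.2.2.1 bas.2.2.2.2.2.1
  · rcases c x h with rfl | rfl
    exacts [one_mem _, bas.2.2.1]

theorem fu : ∀ m, m * u0 * m⁻¹ = u0 ∨ m * u0 * m⁻¹ = a * u0 := by decide +kernel
theorem su : ∀ m, u0 * (m * m) = m * m * u0 := by decide +kernel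
theorem n8 : ∀ x ∈ Q0, x * x = 1 → ∀ y ∈ Q0, y * y = 1 → x * y = y * x → ¬ Z1 y →
    x = 1 ∨ x = a ∨ x = y ∨ x = a * y := by decide +kernel
theorem f4 : ∀ m, m * m ∉ Q0 → Z1 (m * m * (m * m)) → u0 * m ≠ m * u0 := by decide +kernel
theorem f3 : ∀ m, m ∉ O0 → Z1 (m * m) → ∃ x ∈ Q0, x * m = m * x ∧ x * x = a := by decide +kernel
theorem fv : ∀ m, VT m → m ∈ T0 ∧ ∃ k, Z1 (k * m * k⁻¹ * s0⁻¹) := by decide +kernel
theorem fs : ∃ x ∈ Q0, x * s0 * x⁻¹ * s0⁻¹ = a := by decide +kernel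
theorem fd : ∀ m, VT m → ∀ n, u0 * n = n * u0 → Z1 (n * n) → Z1 (m * n * m⁻¹ * n⁻¹) → n ∈ O0 := by decide +kernel
theorem QO : ∀ m ∈ Q0, m ∈ O0 := by decide +kernel
theorem Tu : ∀ m ∈ T0, u0 * m = m * u0 ∧ m ∈ O0 := by decide +kernel
theorem OT : ∀ m ∈ O0, χ m = 1 ∧ (u0 * m = m * u0 → m ∈ T0) ∧ (m ∈ T0 ∨ m * e0 ∈ T0) := by decide +kernel
theorem c96 : ∀ x ∈ Q0, x * x = 1 → x * u0 ≠ u0 * x → El.cnt (fun m => m * x = x * m) = 96 := by decide +kernel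
theorem fr : r0 * r0 * r0 = 1 ∧ u0 * r0 = r0 * u0 ∧ r0 ∉ T0 := by decide +kernel
theorem fO : ∀ m, m * m ∈ Q0 → m * (r0 * m * r0⁻¹) * (m * (r0 * m * r0⁻¹)) ∈ Q0 → m ∈ O0 := by decide +kernel
theorem fb : ∀ m ∈ T0, ¬ Z1 (m * m) → (∀ y ∈ Q0, y ∈ T0 → m * y * m⁻¹ ≠ y * a) ∧ m ∉ Q0 ∧
    ∃ x ∈ Q0, x ∈ T0 ∧ x * x = a ∧ (m⁻¹ * x * m⁻¹⁻¹ * x = u0 ∨ m⁻¹ * x * m⁻¹⁻¹ * x = a * u0) := by decide +kernel
theorem fA : ∀ m, m ∈ A0 ∨ m ∈ B0 → m ∈ T0 ∧ m * m = 1 := by decide +kernel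
theorem fAB : ∀ m ∈ T0, ∃ x ∈ A0, x⁻¹ * m ∈ B0 := by decide +kernel
theorem fI : ∀ m ∈ T0, (m ∈ Q0 → m * m = 1) → Z1 (m * m) → m ∈ A0 ∨ m ∈ B0 := by decide +kernel
theorem fe : ∀ m, (m ∈ A0 → e0 * m * e0⁻¹ ∈ B0) ∧ (m ∈ B0 → e0 * m * e0⁻¹ ∈ A0) := by decide +kernel
theorem ab : a ∈ A0 ∧ a ∈ B0 ∧ a ∈ T0 ∧ s0 ∈ A0 ∧ s0 ∉ B0 ∧ e0 * s0 * e0⁻¹ ∉ A0 ∧ u0 ∈ A0 ∧ u0 ∈ B0 := by
  decide +kernel
theorem fc : ∀ m ∈ T0, e0 * m = m * e0 → m ∈ Q0 ∧ (m * m = 1 → Z1 m) := by decide +kernel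
theorem fT : ∀ m ∈ T0, ∃ n ∈ T0, Z1 ((n * r0 * n⁻¹ * r0⁻¹)⁻¹ * m) ∨ Z1 ((n * r0 * n⁻¹ * r0⁻¹)⁻¹ * m * u0⁻¹) := by
  decide +kernel
theorem fN : ∀ m, χ m = 1 → (Z1 (m * m * (m * m)) → m ∈ O0) ∧ (u0 * m ≠ m * u0 → u0 * (m * e0) = m * e0 * u0) ∧
    (u0 * m = m * u0 → (m ∈ T0 ∨ m * r0 ∈ T0 ∨ m * r0 * r0 ∈ T0) ∧ (m * m ∈ T0 → m ∈ T0)) := by decide +kernel
theorem fp : χ p0 = -1 ∧ χ (p0 * e2) = -1 ∧ p0 * p0 = 1 ∧ p0 * e2 * (p0 * e2) = 1 ∧ e2 ∈ Q0 ∧ χ e0 = 1 ∧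
    (∃ k, k * e0 * k⁻¹ = e2) ∧ ∃ x ∈ Q0, x * x = a := by decide +kernel

/-! the extraspecial group -/

noncomputable def a' : QT := El.w [1, 3, 1, 3]
noncomputable def u' : QT := El.w [1, 3, 5, 7]

/-- the embedding in the model -/
noncomputable def j : QT →* MT := pQ.lift (f := fun i => El.w [2 * i + 1]) (by decide +kernel)

/-- five anticommuting involutions -/
noncomputable def F (i : Fin 5) : QT := if i = 4 then u' else El.w [2 * i + 1]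

/-- the index of an involution -/
noncomputable def ix (x : QT) : Fin 5 :=
  if x = F 0 ∨ x = a' * F 0 then 0 else if x = F 1 ∨ x = a' * F 1 then 1 else if x = F 2 ∨ x = a' * F 2 then 2
    else if x = F 3 ∨ x = a' * F 3 then 3 else 4

/-- four of the five involutions -/
noncomputable def K (i : Fin 5) (n : ℕ) : QT := if n = i then u' else El.w [2 * n + 1]

theorem qc : ∀ x : QT, x = 1 ∨ x = a' ∨ ∃ y, x * y * x⁻¹ * y⁻¹ = a' := by decide +kernel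
theorem ac' : ∀ x, x * a' = a' * x := by decide +kernel
theorem jQ : (∀ x, j x ∈ Q0) ∧ (∀ m ∈ Q0, ∃ x, j x = m) ∧ j a' = a := by decide +kernel
theorem i1 : ∀ x : QT, ix (a' * x) = ix x ∧
    (x * x = 1 → x ≠ 1 → x ≠ a' → x = F (ix x) ∨ x = a' * F (ix x)) := by decide +kernel
theorem i2 : ∀ i, ix (F i) = i ∧ F i * F i = 1 ∧ F i ≠ 1 ∧ F i ≠ a' := by decide +kernel
theorem relK : ∀ i, ∀ r ∈ RQ, ev (K i) r = 1 := by decide +kernel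
theorem kK : ∀ i, ev (K i) [1, 3, 1, 3] = a' ∧ (ev (K i) [1, 3, 5, 7] = F i ∨ ev (K i) [1, 3, 5, 7] = a' * F i) := by
  decide +kernel
theorem anti : ∀ i k : Fin 5, i ≠ k → F i * F k ≠ F k * F i := by decide +kernel
theorem dn : ∀ x0 : QT, x0 * x0 = 1 → x0 * u' ≠ u' * x0 → ∀ x1 : QT, x1 * x1 = 1 → x1 * u' ≠ u' * x1 →
    x0 * x1 ≠ x1 * x0 → ∀ x2 : QT, x2 * x2 = 1 → x2 * u' ≠ u' * x2 → x0 * x2 ≠ x2 * x0 → x1 * x2 ≠ x2 * x1 →
    ∀ x3 : QT, x3 * x3 = 1 → x3 * u' ≠ u' * x3 → x0 * x3 ≠ x3 * x0 → x1 * x3 ≠ x3 * x1 → x2 * x3 ≠ x3 * x2 →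
    ∃ m : MT, m * El.w [1] = j x0 * m ∧ m * El.w [3] = j x1 * m ∧ m * El.w [5] = j x2 * m ∧
      m * El.w [7] = j x3 * m := by decide +kernel

theorem s5 : ∀ s : Equiv.Perm (Fin 5), s * s = 1 → s ≠ 1 → ∀ t : Equiv.Perm (Fin 5), t * t = 1 → t ≠ 1 → s ≠ t →
    s * t = t * s → ∃ i, s i = i ∧ t i = i ∧ ∀ k, s k = k → t k = k → k = i := by decide +kernel

/-- double transpositions -/
def w1 : Equiv.Perm (Fin 4) := Equiv.swap 0 1 * Equiv.swap 2 3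
/-- double transpositions -/
def w2 : Equiv.Perm (Fin 4) := Equiv.swap 0 2 * Equiv.swap 1 3

theorem s4 : w1 * w1 = 1 ∧ w2 * w2 = 1 ∧ w1 ≠ 1 ∧ w2 ≠ 1 ∧ w1 ≠ w2 ∧ w1 * w2 = w2 * w1 ∧
    ∀ s, (s⁻¹ * w1 * s = w1 ∨ s⁻¹ * w1 * s = w2 ∨ s⁻¹ * w1 * s = w1 * w2) ∧
      (s⁻¹ * w2 * s = w1 ∨ s⁻¹ * w2 * s = w2 ∨ s⁻¹ * w2 * s = w1 * w2) := by decide +kernel

end CF.Pg
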