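/-
An involution centraliser of shape `2₋^{1+4}.S₄`: comparison with the model.
-/
import Cfsg.Agent.Loc.Pg1
set_option autoImplicit false
set_option maxRecDepth 100000
set_option linter.unusedSectionVars false

namespace CF.Pg
open Subgroup CF.Comp CF.Cod CF.Loc CF.LX CF.Even CF.XT Function

variable {G : Type*} [Group G] [Finite G] {Q : Subgroup G} {z : G}

theorem exists_pre' {M : Type*} [Group M] [Finite M] {Q0 : Subgroup M} {a : M} (h : LQ Q z) (h0 : LQ Q0 a)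
    (ac : ∀ m, m * a = a * m) (θ : Q0 ≃* Q) (tz : (θ ⟨a, h0.mem⟩ : G) = z) (c : Nat.card 𝐂₁(z) = Nat.card M)
    (dn : ∀ g, g * z = z * g → ∃ m, ∀ x y : Q0, (y : M) = m * x * m⁻¹ → (θ y : G) = g * θ x * g⁻¹) :
    ∃ Θ, Pre Q z Q0 a Θ := by
  classical
  obtain ⟨μ, c1, s1⟩ := exists_act h θ
  obtain ⟨ν, c2, s2⟩ := exists_act h0 (MulEquiv.refl Q0)
  have t : 𝐂₁(a) = ⊤ := eq_top_iff.2 fun m _ => mem_c1.2 (ac m)
  have c3 : Nat.card 𝐂₁(a) = Nat.card M := by rw [t, card_top]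
  have le : μ.range ≤ ν.range := by
    rintro _ ⟨g, rfl⟩
    obtain ⟨m, e⟩ := dn g (mem_c1.1 g.2)
    exact ⟨⟨m, mem_c1.2 (ac m)⟩, MulEquiv.ext fun x => θ.injective (Subtype.ext ((e x _ (s2 _ x)).trans (s1 g x).symm))⟩
  have eq : μ.range = ν.range := eq_of_le_of_card_ge le (by omega)
  let Θ : M → G := fun x => if hx : x ∈ Q0 then θ ⟨x, hx⟩ else 1
  have hΘ : ∀ x : Q0, Θ x = θ x := fun x => dif_pos x.2
  have cor : ∀ (g : 𝐂₁(z)) (m : 𝐂₁(a)), μ g = ν m → Cor Θ Q0 z g m := fun g m e => ⟨mem_c1.1 g.2, fun x hx => by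
    have := s2 m ⟨x, hx⟩
    rw [hΘ ⟨x, hx⟩, ← s1, e, ← hΘ]
    exact congrArg Θ this⟩
  refine ⟨Θ, h, h0, ac, fun x hx y hy => ?_, fun x hx y hy e => ?_, fun x hx => ?_, fun y hy => ?_,
    (hΘ ⟨a, h0.mem⟩).trans tz, fun m => ?_, fun g hg => ?_, c⟩
  · rw [hΘ ⟨x, hx⟩, hΘ ⟨y, hy⟩, ← coe_mul, ← map_mul, ← hΘ]; rfl
  · rw [hΘ ⟨x, hx⟩, hΘ ⟨y, hy⟩] at e
    exact congrArg Subtype.val (θ.injective (Subtype.ext e))
  · rw [hΘ ⟨x, hx⟩]; exact (θ _).2
  · obtain ⟨u, e⟩ := θ.surjective ⟨y, hy⟩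
    exact ⟨u, u.2, by rw [hΘ, e]⟩
  · obtain ⟨g, e⟩ := eq.ge ⟨⟨m, mem_c1.2 (ac m)⟩, rfl⟩
    exact ⟨g, cor g ⟨m, mem_c1.2 (ac m)⟩ e⟩
  · obtain ⟨m, e⟩ := le ⟨⟨g, mem_c1.2 hg⟩, rfl⟩
    exact ⟨m, cor ⟨g, mem_c1.2 hg⟩ m e.symm⟩

theorem inj_of {K : Type*} [Group K] {φ : QT →* K} (h : φ a' ≠ 1) : Injective φ :=
  (injective_iff_map_eq_one φ).2 fun x e => by
    rcases qc x with k | rfl | ⟨y, k⟩
    exacts [k, absurd e h, absurd (by simp [← k, e]) h]

theorem mem_g4 {w : List ℕ} (h : w ∈ gensW 4) : w = [7] ∨ w = [5] ∨ w = [3] ∨ w = [1] := by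
  rw [show gensW 4 = [[7], [5], [3], [1]] from rfl] at h
  simpa using h

theorem exists_more {S : Subgroup G} (l : List G) (c : l.length < Nat.card S) : ∃ x ∈ S, x ∉ l := by
  by_contra! n
  exact c.not_ge (card_le_of_list l n)

/-- there is no elementary abelian subgroup of order eight -/
def N8 (Q : Subgroup G) (z : G) : Prop := ∀ x ∈ Q, ∀ y ∈ Q, x * x = 1 → y * y = 1 → x * y = y * x →
  y ≠ 1 → y ≠ z → x = 1 ∨ x = z ∨ x = y ∨ x = z * y

theorem exists_hom (h : EX Q z) (c : Nat.card Q = 32) (n : N8 Q z) :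
    ∃ φ : QT →* G, φ.range ≤ Q ∧ φ a' = z := by
  have sm : ∀ {x y}, x ∈ Q → y ∈ Q → x * y ≠ y * x → x * y * (x * y) = z * (x * x) * (y * y) := fun {x y} hx hy k => by
    have := (h.conj_cases hy hx).resolve_left fun e => k (conj_eq_iff.1 e).symm
    calc _ = x * (y * x * y⁻¹) * (y * y) := by group
      _ = _ := by rw [this, ← mul_assoc x z, h.zc hx, mul_assoc z]
  have cm : ∀ {x y : G}, x * y = y * x → x * y * (x * y) = x * x * (y * y) := fun {x y} k => by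
    calc _ = x * (y * x) * y := by group
      _ = _ := by rw [← k]; group
  have half : ∀ (S : Subgroup G) {x}, x ∈ Q → S ≤ Q → Nat.card S ≤ 2 * Nat.card ↥(S ⊓ 𝐂₁(x)) :=
    fun S x hx l => h.card_z ▸ card_le_comm fun y hy => h.comm_mem (l hy) hx
  obtain ⟨x, hx, xx, x1, xz⟩ : ∃ x ∈ Q, x * x = 1 ∧ x ≠ 1 ∧ x ≠ z := by
    by_contra! k
    have k' : ∀ x ∈ Q, x ≠ 1 → x ≠ z → x * x = z := fun x a b d => (h.sq x a).resolve_left fun e => d (k x a e b)
    obtain ⟨t, ht, t1, t2⟩ := h.exists_not_mem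
    have := half Q ht le_rfl
    obtain ⟨y, hy, e⟩ := exists_more (S := Q ⊓ 𝐂₁(t)) [1, z, t⁻¹, z * t⁻¹] (by show 4 < _; omega)
    simp only [List.mem_cons, List.not_mem_nil, or_false, not_or] at e
    have := k' _ (mul_mem hy.1 ht) (fun k => e.2.2.1 (eq_inv_of_mul_eq_one_left k))
      fun k => e.2.2.2 (eq_mul_inv_of_mul_eq k)
    rw [cm (mem_c1.1 hy.2), k' y hy.1 e.1 e.2.1, k' t ht t1 t2, h.zz] at this
    exact h.z_ne this.symm
  obtain ⟨y, hy, yy, xy⟩ : ∃ y ∈ Q, y * y = 1 ∧ x * y ≠ y * x := by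
    obtain ⟨q, hq, e⟩ := h.exists_conj' hx x1 xz
    have k : x * q ≠ q * x := fun k => h.z_ne (by rw [conj_eq_iff.2 k.symm] at e; simpa using e)
    rcases h.sq q hq with s | s
    · exact ⟨q, hq, s, k⟩
    · exact ⟨x * q, mul_mem hx hq, by rw [sm hx hq k, xx, s, mul_one, h.zz], fun e => k (by
        rwa [mul_assoc, mul_right_inj] at e)⟩
  have h1 := half Q hx le_rfl
  have h2 := half (Q ⊓ 𝐂₁(x)) hy inf_le_left
  have sq : ∀ d ∈ Q ⊓ 𝐂₁(x) ⊓ 𝐂₁(y), d ≠ 1 → d ≠ z → d * d = z := fun d hd d1 dz =>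
    (h.sq d hd.1.1).resolve_left fun e => by
      have k := mem_c1.1 hd.2
      rcases n d hd.1.1 x hx e xx (mem_c1.1 hd.1.2) x1 xz with e | e | e | e
      exacts [d1 e, dz e, xy (e ▸ k), xy (by rwa [e, ← mul_assoc, h.zc hy, mul_assoc, mul_assoc, mul_right_inj] at k)]
  obtain ⟨b, hb, eb⟩ := exists_more (S := Q ⊓ 𝐂₁(x) ⊓ 𝐂₁(y)) [1, z] (by show 2 < _; omega)
  obtain ⟨d, hd, ed⟩ := exists_more (S := Q ⊓ 𝐂₁(x) ⊓ 𝐂₁(y)) [1, z, b⁻¹, b⁻¹ * z] (by show 4 < _; omega)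
  simp only [List.mem_cons, List.not_mem_nil, or_false, not_or] at eb ed
  have bb := sq b hb eb.1 eb.2
  have dd := sq d hd ed.1 ed.2.1
  have bd : b * d ≠ d * b := fun k => by
    have := sq _ (mul_mem hb hd) (fun k => ed.2.2.1 (eq_inv_of_mul_eq_one_right k))
      fun k => ed.2.2.2 (eq_inv_mul_of_mul_eq k)
    rw [cm k, bb, dd, h.zz] at this
    exact h.z_ne this.symm
  have w := mul_mem hx hy
  have ww : x * y * (x * y) = z := by rw [sm hx hy xy, xx, yy, mul_one, mul_one]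
  have cw : ∀ {d}, d ∈ Q ⊓ 𝐂₁(x) ⊓ 𝐂₁(y) → Commute (x * y) d := fun hd =>
    Commute.mul_left (mem_c1.1 hd.1.2).symm (mem_c1.1 hd.2).symm
  have s1 : ∀ {d}, d ∈ Q ⊓ 𝐂₁(x) ⊓ 𝐂₁(y) → d * d = z → x * y * d * (x * y * d) = 1 := fun hd e => by
    rw [cm (cw hd), ww, e, h.zz]
  have s2 : ∀ {d}, d ∈ Q ⊓ 𝐂₁(x) ⊓ 𝐂₁(y) → x * (x * y * d) ≠ x * y * d * x := fun {d} hd e => xy (by
    rwa [mul_assoc (x * y) d, mem_c1.1 hd.1.2, ← mul_assoc, ← mul_assoc (x * y), mul_left_inj, mul_assoc x y,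
      mul_right_inj] at e)
  have s3 : ∀ {d}, d ∈ Q ⊓ 𝐂₁(x) ⊓ 𝐂₁(y) → y * (x * y * d) ≠ x * y * d * y := fun {d} hd e => xy (by
    rw [mul_assoc (x * y) d, mem_c1.1 hd.2, ← mul_assoc, ← mul_assoc (x * y), mul_left_inj, ← mul_assoc,
      mul_left_inj] at e
    exact e.symm)
  have s4 : x * y * b * (x * y * d) ≠ x * y * d * (x * y * b) := fun e => bd (by
    rwa [mul_assoc (x * y) b, mul_assoc (x * y) d, mul_right_inj, ← mul_assoc b, ← mul_assoc d, ← (cw hb).eq,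
      ← (cw hd).eq, mul_assoc (x * y), mul_assoc (x * y), mul_right_inj] at e)
  have mb := mul_mem w hb.1.1
  have md := mul_mem w hd.1.1
  have k : ∀ {u v}, u ∈ Q → v ∈ Q → u * u = 1 → v * v = 1 → u * v ≠ v * u →
      x * (y * (x * (y * (u * (v * (u * (v * 1))))))) = 1 := fun {u v} hu hv uu vv e => by
    rw [show x * (y * (x * (y * (u * (v * (u * (v * 1))))))) = x * y * (x * y) * (u * v * (u * v)) by group, ww,
      sm hu hv e, uu, vv, mul_one, mul_one, h.zz]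
  have b2 := s1 hb bb
  have d2 := s1 hd dd
  have b3 := s2 hb
  have d3 := s2 hd
  have b4 := s3 hb
  have d4 := s3 hd
  generalize x * y * b = b at *
  generalize x * y * d = d at *
  have r : ∀ r ∈ RQ, ev (fun i => [x, y, b, d].getD i 1) r = 1 := by
    simp only [RQ, List.forall_mem_cons, List.not_mem_nil, false_imp_iff, implies_true, and_true]
    exact ⟨(congrArg _ (mul_one x)).trans xx, (congrArg _ (mul_one y)).trans yy, (congrArg _ (mul_one b)).trans b2,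
      (congrArg _ (mul_one d)).trans d2, k hx hy xx yy xy, k hx mb xx b2 b3, k hx md xx d2 d3, k hy mb yy b2 b4,
      k hy md yy d2 d4, k mb md b2 d2 s4⟩
  refine ⟨pQ.lift r, (pQ.range_lift r).le.trans (clo_le.2 fun w hw => ?_), (pQ.lift_w r (by decide +kernel)).trans ?_⟩
  · rcases mem_g4 hw with rfl | rfl | rfl | rfl
    exacts [mul_mem md (one_mem _), mul_mem mb (one_mem _), mul_mem hy (one_mem _), mul_mem hx (one_mem _)]
  · exact (show x * (y * (x * (y * 1))) = _ by group).trans ww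

theorem exists_act' (h : LQ Q z) (c : Nat.card Q = 32) {φ : QT →* G} (l : φ.range ≤ Q) (e : φ a' = z) :
    Injective φ ∧ φ.range = Q ∧ ∃ μ : 𝐂₁(z) →* MulAut QT, (∀ g x, φ (μ g x) = g * φ x * (g : G)⁻¹) ∧
      ∀ g, μ g a' = a' := by
  have i : Injective φ := inj_of (e ▸ h.z_ne)
  have r := range_eq_of_card i l (c.trans (El.card (T := TQ)).symm).le
  have s := indAct_spec i (N := 𝐂₁(z)) (r ▸ h.nor)
  exact ⟨i, r, _, s, fun g => i (by rw [s, e]; exact conj_eq_iff.2 (mem_c1.1 g.2))⟩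

theorem exists_fix (h : LQ Q z) (c : Nat.card Q = 32) {φ : QT →* G} (l : φ.range ≤ Q) (e : φ a' = z)
    {σ : 𝐂₁(z) →* Equiv.Perm (Fin 4)} (sj : Surjective σ) (k : ∀ g, σ g = 1 ↔ (g : G) ∈ Q) :
    ∃ i, ∀ g, g * z = z * g → g * φ (F i) * g⁻¹ = φ (F i) ∨ g * φ (F i) * g⁻¹ = z * φ (F i) := by
  obtain ⟨i, r, μ, s, sa⟩ := exists_act' h c l e
  have ez : ∀ x, z * φ x = φ (a' * x) := fun x => by rw [map_mul, e]
  have f : ∀ g i, μ g (F i) = F (ix (μ g (F i))) ∨ μ g (F i) = a' * F (ix (μ g (F i))) := fun g i =>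
    (i1 _).2 (by rw [← map_mul, (i2 i).2.1, map_one]) ((μ g).map_ne_one_iff.2 (i2 i).2.2.1)
      fun e => (i2 i).2.2.2 ((μ g).injective (e.trans (sa g).symm))
  let π : 𝐂₁(z) →* Equiv.Perm (Fin 5) := MonoidHom.toHomPerm
    { toFun g i := ix (μ g (F i))
      map_one' := funext fun i => by
        show ix (μ 1 (F i)) = i
        rw [map_one]
        exact (i2 i).1
      map_mul' g k := funext fun i => by
        show ix (μ (g * k) (F i)) = ix (μ g (F (ix (μ k (F i)))))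
        rw [map_mul, MulAut.mul_apply]
        generalize ix (μ k (F i)) = n, f k i = t
        rcases t with t | t <;> rw [t]
        rw [map_mul, sa, (i1 _).1] }
  have f' : ∀ (g : 𝐂₁(z)) i, π g i = i → g * φ (F i) * (g : G)⁻¹ = φ (F i) ∨ g * φ (F i) * (g : G)⁻¹ = z * φ (F i) :=
    fun g i t => by
      have k := f g i
      rw [show ix (μ g (F i)) = i from t] at k
      rw [← s, ez]
      exact k.imp (congrArg φ) (congrArg φ)
  have k' : ∀ g, π g = 1 ↔ (g : G) ∈ Q := fun g => by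
    refine ⟨fun t => h.mem_of_comm (mem_c1.1 g.2) fun y hy => ?_, fun t => Equiv.ext fun n => ?_⟩
    · obtain ⟨y, rfl⟩ := r.ge hy
      let W : Subgroup QT :=
        { carrier := {y | μ g y = y ∨ μ g y = a' * y}
          one_mem' := .inl (map_one _)
          mul_mem' := by
            rintro x y (a | a) (b | b) <;> simp only [Set.mem_ofPred_eq, map_mul, a, b]
            exacts [.inl trivial, .inr (by rw [← mul_assoc, ac', mul_assoc]), .inr (mul_assoc ..),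
              .inl (by rw [← mul_assoc, ← ac', mul_assoc x, show a' * a' = 1 by decide +kernel, mul_one])]
          inv_mem' := by
            rintro x (a | a) <;> simp only [Set.mem_ofPred_eq, map_inv, a]
            exacts [.inl trivial, .inr (by rw [mul_inv_rev, show a'⁻¹ = a' by decide +kernel, ac'])] }
      have w : ∀ n, F n ∈ W := fun n => by
        have := f g n
        rwa [show ix (μ g (F n)) = n from DFunLike.congr_fun t n] at this
      have := (pQ.eq_top (S := W) fun u hu => by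
        rcases mem_g4 hu with rfl | rfl | rfl | rfl
        exacts [w 3, w 2, w 1, w 0]).ge (mem_top y)
      rw [← s]
      rcases this with t | t <;> rw [t] <;> simp [e]
    · show ix (μ g (F n)) = n
      rcases h.conj_cases t (l ⟨F n, rfl⟩) with t | t <;> rw [← s] at t
      · rw [i t, (i2 n).1]
      · rw [ez] at t
        rw [i t, (i1 _).1, (i2 n).1]
  have q : ∀ {x y}, σ x = σ y ↔ π x = π y := fun {x y} => by
    rw [← mul_inv_eq_one, ← map_inv, ← map_mul, k, ← k', map_mul, map_inv, mul_inv_eq_one]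
  obtain ⟨v, ev⟩ := sj w1
  obtain ⟨w, ew⟩ := sj w2
  obtain ⟨a1, a2, a3, a4, a5, a6, a7⟩ := s4
  rw [← ev, ← ew] at *
  simp only [← map_mul, ← map_one σ, ne_eq, q] at a1 a2 a3 a4 a5 a6
  simp only [map_mul, map_one] at a1 a2 a3 a4 a5 a6
  obtain ⟨n, n1, n2, n3⟩ := s5 _ a1 a3 _ a2 a4 a5 a6
  refine ⟨n, fun g hg => f' ⟨g, mem_c1.2 hg⟩ n ?_⟩
  generalize (⟨g, mem_c1.2 hg⟩ : 𝐂₁(z)) = g
  have t : ∀ x, (σ g)⁻¹ * σ x * σ g = σ v ∨ (σ g)⁻¹ * σ x * σ g = σ w ∨ (σ g)⁻¹ * σ x * σ g = σ v * σ w →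
      π x (π g n) = π g n := fun x t => by
    simp only [← map_mul, ← map_inv, q] at t
    have : π (g⁻¹ * x * g) n = n := by rcases t with t | t | t <;> simp [t, n1, n2]
    simpa [Equiv.symm_apply_eq] using this
  exact n3 _ (t v (a7 _).1) (t w (a7 _).2)

theorem exists_pre (h : LQ Q z) (c : Nat.card Q = 32) (n : N8 Q z)
    {σ : 𝐂₁(z) →* Equiv.Perm (Fin 4)} (sj : Surjective σ) (k : ∀ g, σ g = 1 ↔ (g : G) ∈ Q) :
    ∃ Θ, Pre Q z Q0 a Θ := by
  obtain ⟨φ, l, e⟩ := exists_hom h.toEX c n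
  obtain ⟨n, f⟩ := exists_fix h c l e sj k
  let ψ := φ.comp (pQ.lift (relK n))
  have e' : ψ a' = z := (congrArg φ ((pQ.lift_w _ (by decide +kernel)).trans (kK n).1)).trans e
  obtain ⟨i, r, μ, s, sa⟩ := exists_act' h c (φ := ψ) (fun _ ⟨_, e⟩ => l ⟨_, e⟩) e'
  have u : ∀ g, μ g u' = u' ∨ μ g u' = a' * u' := fun g => by
    have t : ψ u' = φ (ev (K n) [1, 3, 5, 7]) := congrArg φ (pQ.lift_w _ (by decide +kernel))
    have gz := conj_eq_iff.2 (mem_c1.1 g.2)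
    rw [← i.eq_iff, ← i.eq_iff, s, map_mul, e', t]
    rcases (kK n).2 with t | t <;> rw [t]
    · exact f g (mem_c1.1 g.2)
    · rw [map_mul, e, conj_mul_conj, gz]
      exact (f g (mem_c1.1 g.2)).imp (congrArg _) (congrArg _)
  have ij : Injective j := inj_of (jQ.2.2 ▸ bas.2.1)
  have rj : j.range = Q0 := le_antisymm (fun _ ⟨x, e⟩ => e ▸ jQ.1 x) jQ.2.1
  let θ : Q0 ≃* Q := ((MulEquiv.subgroupCongr rj).symm.trans (MonoidHom.ofInjective ij).symm).trans
    ((MonoidHom.ofInjective i).trans (MulEquiv.subgroupCongr r))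
  have t : ∀ x (y : Q0), j x = y → (θ y : G) = ψ x := fun x y e =>
    congrArg ψ (ij ((MonoidHom.apply_ofInjective_symm ij _).trans e.symm))
  refine exists_pre' h lq ac θ ((t a' _ jQ.2.2).trans e') ?_ fun g hg => ?_
  · rw [card_eq_card_quotient_mul_card_subgroup σ.ker,
      Nat.card_congr (QuotientGroup.quotientKerEquivOfSurjective σ sj).toEquiv,
      show σ.ker = Q.subgroupOf _ from ext k, Nat.card_congr (subgroupOfEquivOfLe h.le_c1).toEquiv, c, El.card,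
      Nat.card_perm, Nat.card_fin]
    rfl
  let α := μ ⟨g, mem_c1.2 hg⟩
  have q1 : ∀ i, α (F i) * α (F i) = 1 := fun i => by rw [← map_mul, (i2 i).2.1, map_one]
  have q2 : ∀ i k, i ≠ k → α (F i) * α (F k) ≠ α (F k) * α (F i) := fun i k e t =>
    anti i k e (α.injective (by rwa [map_mul, map_mul]))
  have q3 : ∀ i, i ≠ 4 → α (F i) * u' ≠ u' * α (F i) := fun i e t => q2 i 4 e (by
    show _ * μ _ u' = μ _ u' * _
    rcases u ⟨g, mem_c1.2 hg⟩ with k | k <;> rw [k]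
    exacts [t, by rw [← mul_assoc, ac', mul_assoc, t, mul_assoc]])
  obtain ⟨m, m0, m1, m2, m3⟩ := dn _ (q1 0) (q3 0 (by decide)) _ (q1 1) (q3 1 (by decide)) (q2 0 1 (by decide))
    _ (q1 2) (q3 2 (by decide)) (q2 0 2 (by decide)) (q2 1 2 (by decide))
    _ (q1 3) (q3 3 (by decide)) (q2 0 3 (by decide)) (q2 1 3 (by decide)) (q2 2 3 (by decide))
  have w : ∀ i : ℕ, i < 4 → j (El.w [2 * i + 1]) = El.w [2 * i + 1] := fun i hi =>
    pQ.lift_g _ i (by interval_cases i <;> decide +kernel)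
  have := pQ.hom_ext (φ := (MulAut.conj m).toMonoidHom.comp j) (ψ := j.comp α.toMonoidHom) fun u hu => by
    refine mul_inv_eq_iff_eq_mul.2 ?_
    rcases mem_g4 hu with rfl | rfl | rfl | rfl
    exacts [(congrArg _ (w 3 (by decide))).trans m3, (congrArg _ (w 2 (by decide))).trans m2,
      (congrArg _ (w 1 (by decide))).trans m1, (congrArg _ (w 0 (by decide))).trans m0]
  refine ⟨m, fun x y e => ?_⟩
  obtain ⟨x', e'⟩ := jQ.2.1 x x.2
  rw [t x' x e', t (α x') y ((DFunLike.congr_fun this x').symm.trans (by rw [e, ← e']; rfl))]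
  exact s _ x'

end CF.Pg
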