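/-
An involution centraliser of shape `2₋^{1+4}.S₄`: fusion.
-/
import Cfsg.Agent.Loc.Pg2
import Cfsg.Agent.LX.Sing
set_option autoImplicit false
set_option maxRecDepth 100000
set_option linter.unusedSectionVars false

namespace CF.Pg
open Subgroup CF.Comp CF.Cod CF.Loc CF.LX CF.Even CF.XT Function

theorem g1 : ∀ m ∈ O0, m * m ∈ Q0 := by decide +kernel
theorem g2 : ∀ x ∈ Q0, x * x = 1 → x ∉ T0 → ∃ k, k * e0 * k⁻¹ = x := by decide +kernel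

variable {G : Type*} [Group G] [Finite G] {Q P : Subgroup G} {z t g s : G} {Θ Θ' : MT → G} {m n : MT}
  {W : Subgroup MT}

theorem uQ : u0 ∈ Q0 := bas.2.2.2.2.2.2.2.1
theorem e0Q : e0 ∈ Q0 := bas.2.2.2.1

section
variable (h : Pre Q z Q0 a Θ)
include h

theorem pre_cj (g : G) : Pre (cj[g] Q) (g * z * g⁻¹) Q0 a fun x => g * Θ x * g⁻¹ := by
  have k : ∀ {k m}, Cor Θ Q0 z k m → Cor (fun x => g * Θ x * g⁻¹) Q0 (g * z * g⁻¹) (g * k * g⁻¹) m := fun c =>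
    ⟨by rw [← conj_mul_conj, c.1, conj_mul_conj], fun x hx => by simp only [← c.2 x hx]; group⟩
  refine ⟨h.l.cj g, h.l0, h.ac, fun x hx y hy => by rw [h.mul x hx y hy, conj_mul_conj],
    fun x hx y hy e => h.inj x hx y hy (by simpa using e), fun x hx => conj_mem_cj g (h.mem x hx),
    fun y hy => ?_, by rw [h.tz], fun m => (h.up m).elim fun _ c => ⟨_, k c⟩, fun y hy => ?_,
    (CF.Bt.card_cent_conj _ _).trans h.card⟩
  · obtain ⟨x, hx, e⟩ := h.surj _ (mem_cj.1 hy)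
    exact ⟨x, hx, by rw [e]; group⟩
  · obtain ⟨m, c⟩ := h.down (g⁻¹ * y * g) (by
      calc _ = g⁻¹ * (y * (g * z * g⁻¹)) * g := by group
        _ = _ := by rw [hy]; group)
    exact ⟨m, by simpa [mul_assoc] using k c⟩

theorem z1 (c : Cor Θ Q0 z g m) : Z1 m ↔ g = 1 ∨ g = z := by
  refine ⟨?_, ?_⟩ <;> rintro (rfl | rfl)
  exacts [h.left c, by simpa using h.left' c h.ca, h.right c, by simpa [Z1] using h.right' c h.cz]

/-- the subgroup corresponding to a subgroup of the model -/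
noncomputable def pull (W : Subgroup MT) : Subgroup G := (W.comap (MonoidHom.snd G MT) ⊓ h.D).map (MonoidHom.fst G MT)

theorem mem_pull' : g ∈ pull h W ↔ ∃ m ∈ W, Cor Θ Q0 z g m :=
  ⟨fun ⟨d, k, e⟩ => ⟨d.2, k.1, e ▸ k.2⟩, fun ⟨m, k, c⟩ => ⟨(g, m), ⟨k, c⟩, rfl⟩⟩

theorem mem_pull (w : a ∈ W) (c : Cor Θ Q0 z g m) : g ∈ pull h W ↔ m ∈ W := by
  refine (mem_pull' h).trans ⟨fun ⟨n, k, d⟩ => ?_, fun k => ⟨m, k, c⟩⟩
  rcases h.right' c d with rfl | rfl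
  exacts [k, mul_mem w k]

theorem pull_le : pull h W ≤ 𝐂₁(z) := fun _ k => ((mem_pull' h).1 k).elim fun _ c => mem_c1.2 c.2.1

theorem z_pull : z ∈ pull h W := (mem_pull' h).2 ⟨1, one_mem _, h.cz⟩

theorem card_pull (w : a ∈ W) : Nat.card (pull h W) = Nat.card W := by
  have : h.lift (pull h W) = W := ext fun m => h.mem_lift.trans
    ⟨fun ⟨_, k, c⟩ => (mem_pull h w c).1 k, fun k => (h.up m).imp fun _ c => ⟨(mem_pull h w c).2 k, c⟩⟩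
  exact le_antisymm ((h.card_lift (pull_le h)).trans_eq (by rw [this]))
    ((h.card_lift' (z_pull h)).trans_eq' (by rw [this]))

theorem cQ : Nat.card Q = 32 := h.card_Q.symm.trans card_Q0

theorem sq1 {x : MT} (hx : x ∈ Q0) : Θ x * Θ x = 1 ↔ x * x = 1 := by
  rw [← h.mul x hx x hx]
  exact ⟨h.eq_one (mul_mem hx hx), fun e => by rw [e, h.one]⟩

theorem n8G : N8 Q z := fun x hx y hy xx yy e y1 yz => by
  obtain ⟨x, hx', rfl⟩ := h.surj x hx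
  obtain ⟨y, hy', rfl⟩ := h.surj y hy
  clear hx hy
  rename' hx' => hx, hy' => hy
  rcases n8 x hx ((sq1 h hx).1 xx) y hy ((sq1 h hy).1 yy) ((h.comm hx hy).1 e)
    (fun k => ((z1 h (h.cself hy)).1 k).elim y1 yz) with rfl | rfl | rfl | rfl
  exacts [.inl h.one, .inr (.inl h.tz), .inr (.inr (.inl rfl)),
    .inr (.inr (.inr (by rw [h.mul _ h.l0.mem _ hy, h.tz])))]

theorem zu : Θ (a * u0) = z * Θ u0 := by rw [h.mul _ h.l0.mem _ uQ, h.tz]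

theorem cju (c : g * z = z * g) : g * Θ u0 * g⁻¹ = Θ u0 ∨ g * Θ u0 * g⁻¹ = z * Θ u0 := by
  obtain ⟨m, c⟩ := h.down g c
  rw [c.2 _ uQ, ← zu h]
  exact (fu m).imp (congrArg _) (congrArg _)

theorem uu : Θ u0 * Θ u0 = 1 := (sq1 h uQ).2 bas.2.2.2.2.2.2.2.2.2.2.1

theorem u1 : ¬ (Θ u0 = 1 ∨ Θ u0 = z) := fun e => ((z1 h (h.cself uQ)).2 e).elim
  bas.2.2.2.2.2.2.2.2.1 bas.2.2.2.2.2.2.2.2.2.1

theorem eu : Θ e0 * Θ u0 * (Θ e0)⁻¹ = z * Θ u0 := by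
  rw [← h.conj e0Q uQ, bas.2.2.2.2.2.2.2.2.2.2.2.1, zu h]

theorem vtype (k : Pre P t Q0 a Θ') (tQ : t ∉ Q) (zP : z ∉ P) (c : Cor Θ Q0 z t m) : VT m := by
  have s : Z1 (m * m) := (z1 h (h.cmul c c)).2 (.inl k.l.zz)
  refine ⟨by_contra fun n => ?_, mt (h.memQ c).2 tQ, s⟩
  obtain ⟨x, hx, e, xx⟩ := f3 m n s
  have xz : Θ x * Θ x = z := by rw [← h.mul x hx x hx, xx, h.tz]
  obtain ⟨n, d⟩ := k.down (Θ x) ((h.com c hx).2 e)
  have d2 := xz ▸ k.cmul d d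
  have := mt (k.com d uQ).1 (f4 n (mt (k.memQ d2).2 zP) ((z1 k (k.cmul d2 d2)).2 (.inl h.l.zz)))
  have e2 := (cju k d.1).resolve_left fun e => this (conj_eq_iff.1 e).symm
  refine tQ ?_
  rw [eq_mul_inv_of_mul_eq e2.symm]
  simpa [mul_assoc] using mul_mem (h.mem x hx)
    (conj_mem_of_mem_normalizer (h.l.nor' ((k.com d2 uQ).2 (su n))) (inv_mem (h.mem x hx)))

theorem cjs (c : Cor Θ Q0 z g m) (v : VT m) (d : Cor Θ Q0 z s s0) : IsConj g s := by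
  obtain ⟨-, k, e⟩ := fv m v
  obtain ⟨y, b⟩ := h.up k
  refine (isConj_iff.2 ⟨y, rfl⟩).trans ?_
  rcases (z1 h (h.cmul (h.cconj b c) (h.cinv d))).1 e with e | e
  · rw [mul_inv_eq_one.1 e]
  · obtain ⟨x, hx, k⟩ := fs
    have := h.cmR d hx
    rw [k, h.tz, ← e, mul_left_inj] at this
    exact (isConj_iff.2 ⟨_, this.symm⟩).symm

theorem cjs' (c : Cor Θ Q0 z g m) (v : VT m) (d : Cor Θ Q0 z s n) (w : VT n) : IsConj g s :=
  (h.up s0).elim fun _ k => (cjs h c v k).trans (cjs h d w k).symm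

theorem back {y : G} (hy : y ∈ cj[g] Q) (c : IsConj z y) (ne : y ≠ g * z * g⁻¹) :
    ∃ t ∈ Q, IsConj z t ∧ t ≠ z :=
  ⟨_, mem_cj.1 hy, c.trans (isConj_iff.2 ⟨g⁻¹, by rw [inv_inv]⟩), fun e => ne (by rw [← e]; group)⟩

theorem inQ (c : IsConj z t) (tz : t * z = z * t) (ne : t ≠ z) : ∃ t ∈ Q, IsConj z t ∧ t ≠ z := by
  by_cases tQ : t ∈ Q
  · exact ⟨t, tQ, c, ne⟩
  obtain ⟨g, rfl⟩ := isConj_iff.1 c
  by_cases zP : z ∈ cj[g] Q
  · exact back h zP (IsConj.refl z) ne.symm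
  have b := @back _ _ _ _ _ g _ h
  have k := pre_cj h g
  generalize cj[g] Q = P at *
  generalize (fun x => g * Θ x * g⁻¹) = Θ' at k
  generalize g * z * g⁻¹ = t at *
  obtain ⟨m, d⟩ := h.down t tz
  obtain ⟨n, d'⟩ := k.down z tz.symm
  have v := vtype h k tQ zP d
  have vz := (k.com d' uQ).2 (Tu _ (fv _ (vtype k h zP tQ d')).1).1
  have ut := (h.com d uQ).2 (Tu _ (fv _ v).1).1
  have vt := k.l.zc (k.mem _ uQ)
  obtain ⟨n', f⟩ := h.down _ vz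
  have uv := (cju h vz).resolve_right fun e => by
    have e' : Θ u0 * Θ' u0 * (Θ u0)⁻¹ = z * Θ' u0 := by
      rw [← h.l.zi, eq_inv_mul_iff_mul_eq, ← mul_assoc, ← mul_assoc, ← e]; group
    rcases cju k ut with k | k <;> rw [e'] at k
    exacts [h.l.z_ne (by simpa using k), ne (mul_right_cancel k).symm]
  have o := fd m v n' ((h.com f uQ).1 (conj_eq_iff.1 uv).symm) ((z1 h (h.cmul f f)).2 (.inl (uu k)))
    ((z1 h (h.cmul (h.cconj d f) (h.cinv f))).2 (.inl (by rw [← vt]; group)))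
  have key : ∀ y ∈ P, ∀ n, Cor Θ Q0 z y n → n ∈ O0 → n ∉ Q0 → y * y = 1 → y ≠ t →
      ∃ t ∈ Q, IsConj z t ∧ t ≠ z := fun y hy n f o q yy =>
    b hy (c.trans (cjs' h d v f ⟨o, q, (z1 h (h.cmul f f)).2 (.inl yy)⟩))
  by_cases q : n' ∈ Q0
  · refine key _ (mul_mem (k.mem _ uQ) k.l.mem) _ (h.cmul f d) (mul_mem o v.1)
      (mt (mul_mem_cancel_left q).1 v.2.1) ?_ fun e => u1 k (.inl (by simpa using e))
    rw [mul_assoc, ← mul_assoc t, ← vt, mul_assoc, k.l.zz, mul_one, uu k]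
  · exact key _ (k.mem _ uQ) _ f o q (uu k) fun e => u1 k (.inr e)

theorem cardR (p : Pair Q P z t) : Nat.card (RR Q P z t) = 64 := by
  have e : Q ⊓ P = V4 z t := le_antisymm (fun x hx => p.mem_V.2 (n8G h x hx.1 t p.tQ (p.E_sq hx) p.r.zz
    (p.r.zc hx.2) p.r.z_ne p.ne)) p.V_le
  have := p.card_R
  rw [e, p.klein.card_four, cQ h] at this
  omega

theorem Rc (p : Pair Q P z t) : RR Q P z t ≤ 𝐂₁(z) ⊓ 𝐂₁(t) := p.R_le.trans (cent_V4 z t).le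

theorem liftR (p : Pair Q P z t) : Nat.card (h.lift (RR Q P z t)) = 64 :=
  le_antisymm ((h.card_lift' (p.E_le_R (p.V_le p.zV))).trans (cardR h p).le)
    ((cardR h p).ge.trans (h.card_lift ((Rc h p).trans inf_le_left)))

theorem pair (tQ : t ∈ Q) (c : IsConj z t) (ne : t ≠ z) : ∃ P, Pair Q P z t := by
  obtain ⟨g, rfl⟩ := isConj_iff.1 c
  exact ⟨_, h.l.pair (by rw [cQ h]; decide) ne tQ⟩

theorem eqU (tQ : t ∈ Q) (c : IsConj z t) (ne : t ≠ z) : t = Θ u0 ∨ t = z * Θ u0 := by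
  obtain ⟨P, p⟩ := pair h tQ c ne
  have tu : t * Θ u0 = Θ u0 * t := by
    obtain ⟨x, hx, rfl⟩ := h.surj t tQ
    by_contra k
    have l : h.lift (RR Q P z (Θ x)) ≤ 𝐂₁(x) := fun m hm => (h.mem_lift.1 hm).elim fun g e =>
      mem_c1.2 ((h.com e.2 hx).1 (mem_c1.1 (Rc h p e.1).2).symm).symm
    have := card_dvd_of_le l
    rw [liftR h p, El.card_sub _ _ fun _ => mem_c1, c96 x hx ((sq1 h hx).1 p.r.zz) (mt (h.comm hx uQ).2 k)] at this
    omega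
  simpa [p.r.z_ne, ne] using n8G h t tQ _ (h.mem _ uQ) p.r.zz (uu h) tu (fun e => u1 h (.inl e))
    fun e => u1 h (.inr e)

theorem conj_u (c : IsConj z t) (tz : t * z = z * t) (ne : t ≠ z) : IsConj z (Θ u0) := by
  obtain ⟨t, tQ, c, ne⟩ := inQ h c tz ne
  rcases eqU h tQ c ne with rfl | rfl
  exacts [c, c.trans (isConj_iff.2 ⟨_, eu h⟩).symm]

variable (p : Pair Q P z (Θ u0))
include p

theorem R_eq : RR Q P z (Θ u0) = pull h T0 := by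
  have l : h.lift (RR Q P z (Θ u0)) ≤ T0 := fun m hm => by
    obtain ⟨g, hg, c⟩ := h.mem_lift.1 hm
    obtain ⟨r, d⟩ := h.up r0
    have n := p.C_norm_R ((cent_V4 _ _).ge ⟨mem_c1.2 d.1, mem_c1.2 ((h.com d uQ).2 fr.2.1).symm⟩)
    have c' := h.cmul c (h.cconj d c)
    exact (OT m (fO m ((h.memQ (h.cmul c c)).1 (p.R_sq hg).1) ((h.memQ (h.cmul c' c')).1
      (p.R_sq (mul_mem hg (conj_mem_of_mem_normalizer n hg))).1))).2.1
      ((h.com c uQ).1 (mem_c1.1 (Rc h p hg).2).symm)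
  refine eq_of_le_of_card_ge (fun g hg => ?_) (by rw [card_pull h ab.2.2.1, card_T0, cardR h p])
  obtain ⟨m, c⟩ := h.down g (mem_c1.1 (Rc h p hg).1)
  exact (mem_pull' h).2 ⟨m, l (h.mem_lift.2 ⟨g, hg, c⟩), c⟩

theorem inv_vt (c : Cor Θ Q0 z g m) (v : VT m) : g * g = 1 := by
  have mT : ∀ {g m}, Cor Θ Q0 z g m → (g ∈ RR Q P z (Θ u0) ↔ m ∈ T0) := fun c =>
    R_eq h p ▸ mem_pull h ab.2.2.1 c
  obtain ⟨w, hw, wz, wu⟩ := p.exists_swap
  have nw := p.X_norm_R hw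
  obtain ⟨b, hb, bz, bb⟩ := p.r.exists_sq_eq (by rw [p.card_eq, cQ h]; decide) p.zP h.l.zz h.l.z_ne p.ne.symm
  have bR : b ∈ RR Q P z (Θ u0) := mem_sup_left ⟨hb, mem_c1.2 bz⟩
  obtain ⟨n, d⟩ := h.down b bz
  obtain ⟨-, nq, x, hx, xT, xx, e⟩ := fb n ((mT d).1 bR) fun k => u1 h (bb ▸ (z1 h (h.cmul d d)).1 k)
  have xz : Θ x * Θ x = z := by rw [← h.mul x hx x hx, xx, h.tz]
  have xR := (mT (h.cself hx)).2 xT
  have e1 : Θ (n⁻¹ * x * n⁻¹⁻¹ * x) = b⁻¹ * Θ x * b⁻¹⁻¹ * Θ x := by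
    rw [h.mul _ (h.cm hx _) _ hx, (h.cinv d).2 x hx]
  have e2 : b * Θ x * (b * Θ x) = 1 := by
    rw [show b * Θ x * (b * Θ x) = b * b * (b⁻¹ * Θ x * b⁻¹⁻¹ * Θ x) by group, bb, ← e1]
    rcases e with e | e <;> rw [e]
    · exact uu h
    exfalso
    rw [e, zu h, ← h.l.zc (h.mem _ uQ), ← xz, ← mul_assoc, mul_left_inj] at e1
    have r := conj_mem_of_mem_normalizer' nw xR
    obtain ⟨m, c⟩ := h.down _ (mem_c1.1 (Rc h p r).1)
    obtain ⟨y, hy, ey⟩ := h.surj _ (mem_cj.1 ((p.cjl w wz).ge hb))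
    refine (fb m ((mT c).1 r) fun k => ?_).1 y hy ((mT (h.cself hy)).1 (ey ▸ conj_mem_of_mem_normalizer' nw bR))
      (h.inj _ (h.cm hy _) _ (mul_mem hy h.l0.mem) ?_)
    · have := (z1 h (h.cmul c c)).1 k
      rw [show w⁻¹ * Θ x * w * (w⁻¹ * Θ x * w) = w⁻¹ * (Θ x * Θ x) * w by group, xz] at this
      exact u1 h (by rwa [show w⁻¹ * z * w = Θ u0 by rw [← wu]; group] at this)
    · rw [← c.2 y hy, h.mul _ hy _ h.l0.mem, h.tz, ey]
      calc _ = w⁻¹ * b * (b⁻¹ * Θ x * b⁻¹⁻¹) * (Θ x)⁻¹ * w := by group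
        _ = w⁻¹ * b * w * (w⁻¹ * (w * z * w⁻¹) * w) := by rw [← e1, wz]; group
        _ = _ := by group
  have d' := h.cmul d (h.cself hx)
  obtain ⟨k, rfl⟩ := isConj_iff.1 (cjs' h d' ⟨(Tu _ ((mT d').1 (mul_mem bR xR))).2,
    mt (mul_mem_cancel_right hx).1 nq, (z1 h (h.cmul d' d')).2 (.inl e2)⟩ c v)
  rw [← conj_mul_conj, e2]; group

theorem cls (c : IsConj z t) (tz : t * z = z * t) : t ∈ pull h T0 := by
  by_cases ne : t = z
  · rw [ne]; exact z_pull h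
  have u : Θ u0 ∈ pull h T0 := (mem_pull h ab.2.2.1 (h.cself uQ)).2 (fA _ (.inl ab.2.2.2.2.2.2.1)).1
  by_cases tQ : t ∈ Q
  · rcases eqU h tQ c ne with rfl | rfl
    exacts [u, mul_mem (z_pull h) u]
  obtain ⟨m, d⟩ := h.down t tz
  obtain ⟨g, rfl⟩ := isConj_iff.1 c
  refine (mem_pull h ab.2.2.1 d).2 (fv _ (vtype h (pre_cj h g) tQ (fun k => tQ ?_) d)).1
  have := (h.l.cj g).mem_cj (g := g⁻¹) (by rw [card_cj, cQ h]; decide) (by simpa [mul_assoc] using Ne.symm ne)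
    (by simpa [mul_assoc] using k)
  rwa [← cj_mul, inv_mul_cancel, cj_one] at this

theorem cls_e (c : IsConj z t) (tz : t * z = z * t) (te : t * Θ e0 = Θ e0 * t) : t = z := by
  obtain ⟨m, d⟩ := h.down t tz
  have tt : t * t = 1 := by
    obtain ⟨g, rfl⟩ := isConj_iff.1 c
    exact (h.l.cj g).zz
  obtain ⟨x, hx, rfl⟩ := h.surj t ((h.memQ d).2
    (fc m ((mem_pull h ab.2.2.1 d).1 (cls h p c tz)) ((h.com d e0Q).1 te.symm)).1)
  exact ((z1 h (h.cself hx)).1 ((fc x ((mem_pull h ab.2.2.1 (h.cself hx)).1 (cls h p c tz))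
    ((h.comm e0Q hx).1 te.symm)).2 ((sq1 h hx).1 tt))).resolve_left fun e =>
      h.l.z_ne (isConj_one_left.1 (e ▸ c))

end

end CF.Pg
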