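/-
An involution centraliser of shape `2₋^{1+4}.S₄`: transfer.
-/
import Cfsg.Agent.Loc.Pg3
import Cfsg.Agent.Transfer.Tate
set_option autoImplicit false
set_option maxRecDepth 100000
set_option linter.unusedSectionVars false

namespace CF.Pg
open Subgroup CF.Comp CF.Cod CF.Loc CF.LX CF.Even CF.XT Function

theorem g3 : ∀ b : MT, Xor (b * e0 * u0 = u0 * (b * e0)) (b * u0 = u0 * b) := by
  unfold Xor; decide +kernel

variable {G : Type*} [Group G] [Finite G] {Q P K : Subgroup G} {z t g x : G} {Θ : MT → G} {m n : MT}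
  {W : Subgroup MT}

theorem sq_mem [K.Normal] (i : K.index ∣ 2) (g : G) : g * g ∈ K := by
  obtain ⟨c, e⟩ := i
  rw [← pow_two, e, pow_mul]
  exact pow_mem (K.pow_index_mem g) c

theorem mem_of_sq (S : Subgroup G) (k : ∀ y ∈ S, y * y ∈ K → y ∈ K) (hg : g ∈ S) (n : ℕ) (e : g ^ 2 ^ n ∈ K) :
    g ∈ K := by
  induction n with
  | zero => simpa using e
  | succ n ih => exact ih (k _ (pow_mem hg _) (by rwa [← pow_two, ← pow_mul, ← pow_succ]))

theorem pow_cases {M : Type*} [Group M] {m : M} (e : m * m = 1) (k : ℕ) : m ^ k = 1 ∨ m ^ k = m := by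
  rcases Nat.even_or_odd' k with ⟨j, rfl | rfl⟩ <;> simp [pow_succ, pow_mul, e]

theorem χQ (k : m ∈ Q0) : χ m = 1 := (OT m (QO m k)).1

variable (h : Pre Q z Q0 a Θ)
include h

theorem χ_eq (c : Cor Θ Q0 z g m) (d : Cor Θ Q0 z g n) : χ m = χ n := by
  rcases h.right' c d with rfl | rfl
  exacts [rfl, by rw [map_mul, χQ h.l0.mem, one_mul]]

theorem rel_pull (w : a ∈ W) : (pull h W).relIndex 𝐂₁(z) = W.index := by
  have := card_inf_mul_relIndex (pull h W) 𝐂₁(z)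
  rw [inf_eq_left.2 (pull_le h), card_pull h w, h.card, ← W.card_mul_index] at this
  exact Nat.eq_of_mul_eq_mul_left Nat.card_pos this

theorem odd_C : ¬ 2 ∣ (𝐂₁(z)).index := by
  obtain ⟨S, s⟩ := exists_isSyl 2 𝐂₁(z)
  simpa using (h.l.isSyl_top s).not_dvd_relIndex_of_le s.le le_top

theorem cpow (c : Cor Θ Q0 z g m) (k : ℕ) : Cor Θ Q0 z (g ^ k) (m ^ k) := h.D.pow_mem (x := (g, m)) c k

theorem zK [K.Normal] (i : K.index ∣ 2) : z ∈ K := by
  obtain ⟨x, hx, e⟩ := fp.2.2.2.2.2.2.2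
  rw [← h.tz, ← e, h.mul x hx x hx]
  exact sq_mem i _

theorem z1K [K.Normal] (i : K.index ∣ 2) (c : Cor Θ Q0 z g m) (k : Z1 m) : g ∈ K := by
  rcases (z1 h c).1 k with e | e <;> rw [e]
  exacts [one_mem _, zK h i]

variable (p : Pair Q P z (Θ u0))
include p

theorem TK [K.Normal] (i : K.index ∣ 2) (c : Cor Θ Q0 z g m) (k : m ∈ T0) : g ∈ K := by
  obtain ⟨n, -, e⟩ := fT m k
  obtain ⟨y, b⟩ := h.up n
  obtain ⟨r, d⟩ := h.up r0
  have c' := h.cmul (h.cinv (h.cmul (h.cconj b d) (h.cinv d))) c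
  have : (y * r * y⁻¹ * r⁻¹)⁻¹ ∈ K := inv_mem (by
    rw [show y * r * y⁻¹ * r⁻¹ = y * y * (y⁻¹ * r * (y⁻¹ * r)) * (r⁻¹ * r⁻¹) by group]
    exact mul_mem (mul_mem (sq_mem i _) (sq_mem i _)) (sq_mem i _))
  rw [← mul_mem_cancel_left this]
  rcases e with e | e
  · exact z1K h i c' e
  · obtain ⟨w, -, wz, -⟩ := p.exists_swap
    exact (mul_mem_cancel_right (inv_mem (wz ▸ ‹K.Normal›.conj_mem _ (zK h i) w))).1
      (z1K h i (h.cmul c' (h.cinv (h.cself uQ))) e)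

theorem NK [K.Normal] (i : K.index ∣ 2) (c : Cor Θ Q0 z g m) (k : χ m = 1) (e : u0 * m = m * u0) : g ∈ K := by
  obtain ⟨r, d, r3⟩ := h.exists_cube fr.1
  have : r ∈ K := by
    rw [show r = r * r * r * r by rw [r3, one_mul], mul_assoc]
    exact mul_mem (sq_mem i _) (sq_mem i _)
  rcases ((fN m k).2.2 e).1 with t | t | t
  exacts [TK h p i c t, (mul_mem_cancel_right this).1 (TK h p i (h.cmul c d) t),
    (mul_mem_cancel_right this).1 ((mul_mem_cancel_right this).1 (TK h p i (h.cmul (h.cmul c d) d) t))]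

theorem dih (c : IsConj z t) (te : t * Θ e0 = Θ e0 * t) : ∃ c, c * Θ e0 = Θ e0 * c ∧ c * z * c⁻¹ = t := by
  have tt : t * t = 1 := by
    obtain ⟨g, rfl⟩ := isConj_iff.1 c
    exact (h.l.cj g).zz
  have k : z * t ∈ 𝐂₁(Θ e0) := mul_mem (mem_c1.2 (h.l.zc (h.mem _ e0Q)).symm) (mem_c1.2 te)
  rcases Nat.even_or_odd (orderOf (z * t)) with o | o
  · obtain ⟨w, hw, w2, wz, -⟩ := CF.Invol.exists_central_invol h.l.zz tt o
    have := cls_e h p ((isConj_reflection h.l.zz tt hw).elim id c.trans) (by rw [mul_assoc, wz.eq])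
      (mem_c1.1 (mul_mem (mem_c1.2 (h.l.zc (h.mem _ e0Q)).symm) (zpowers_le.2 k hw)))
    simp [mul_eq_left.1 this] at w2
  · obtain ⟨j, e⟩ := CF.Invol.exists_pow_conj_of_odd h.l.zz tt o
    exact ⟨_, mem_c1.1 (pow_mem k j), e⟩

theorem conjE (c : g⁻¹ * Θ e0 * g * z = z * (g⁻¹ * Θ e0 * g)) : ∃ k, g⁻¹ * Θ e0 * g = Θ (k * e0 * k⁻¹) := by
  obtain ⟨d, de, dz⟩ := dih h p (isConj_iff.2 ⟨g, rfl⟩) (by
    calc g * z * g⁻¹ * Θ e0 = g * (z * (g⁻¹ * Θ e0 * g)) * g⁻¹ := by group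
      _ = _ := by rw [← c]; group)
  obtain ⟨k, b⟩ := h.down (g⁻¹ * d) (by
    calc g⁻¹ * d * z = g⁻¹ * (d * z * d⁻¹) * d := by group
      _ = _ := by rw [dz]; group)
  exact ⟨k, by rw [← b.2 _ e0Q, mul_assoc _ d, de]; group⟩

theorem exists_K1 : ∃ K : Subgroup G, K.Normal ∧ K.index = 2 ∧ Θ e0 ∉ K := by
  have w : a ∈ 𝐂₁(u0) := mem_c1.2 (ac u0).symm
  refine CF.Transfer.thompson_transfer (M := pull h 𝐂₁(u0)) (odd_C h) ?_ (h.l.le_c1 (h.mem _ e0Q))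
    (orderOf_eq_two' ((sq1 h e0Q).2 bas.2.2.2.2.2.2.1) fun e => bas.2.2.2.2.1 (h.eq_one e0Q e)) fun g hg => ?_
  · rw [rel_pull h w, index_eq_two_iff]
    exact ⟨e0, by simpa only [mem_c1] using g3⟩
  · obtain ⟨k, e⟩ := conjE h p (g := g⁻¹) (by simpa using mem_c1.1 (pull_le h hg))
    rw [inv_inv] at e
    rw [e, mem_pull h w (h.cself (h.cm e0Q k)), mem_c1] at hg
    have : e0 * (k⁻¹ * u0 * k⁻¹⁻¹) = k⁻¹ * u0 * k⁻¹⁻¹ * e0 := by
      calc _ = k⁻¹ * (k * e0 * k⁻¹ * u0) * k := by group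
        _ = _ := by rw [hg]; group
    refine bas.2.2.2.2.2.2.2.2.2.2.2.2 ?_
    rcases fu k⁻¹ with t | t <;> rw [t] at this
    exacts [this, by rwa [← mul_assoc, ac, mul_assoc, mul_assoc, mul_right_inj] at this]

theorem keyx [K.Normal] (i : K.index ∣ 2) (c : Cor Θ Q0 z x m) (k : χ m = -1) (mm : m * m = 1) (xK : x ∉ K)
    (d : Cor Θ Q0 z (g⁻¹ * x * g) n) : χ n = -1 := by
  refine (Int.units_eq_one_or _).resolve_left fun e => ?_
  have nT : n ∉ T0 := fun t => xK (by simpa [mul_assoc] using ‹K.Normal›.conj_mem _ (TK h p i d t) g)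
  have d2 := h.cmul d d
  rw [show g⁻¹ * x * g * (g⁻¹ * x * g) = g⁻¹ * (x * x) * g by group] at d2
  have xx := h.left (mm ▸ h.cmul c c)
  have o := (fN n e).1 ((z1 h (h.cmul d2 d2)).2 (.inl (by
    rw [show g⁻¹ * (x * x) * g * (g⁻¹ * (x * x) * g) = g⁻¹ * (x * x * (x * x)) * g by group]
    rcases xx with t | t <;> simp [t, h.l.zz])))
  have ne : (1 : ℤˣ) ≠ -1 := by decide
  rcases xx with t | t <;> rw [t] at d2
  · have q : n ∈ Q0 := by_contra fun q => nT (fv n ⟨o, q, (z1 h d2).2 (.inl (by simp))⟩).1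
    obtain ⟨w, hw, ew⟩ := h.surj _ ((h.memQ d).2 q)
    obtain ⟨k', rfl⟩ := g2 w hw ((sq1 h hw).1 (by
      rw [ew, show g⁻¹ * x * g * (g⁻¹ * x * g) = g⁻¹ * (x * x) * g by group, t]; simp)) fun l =>
        nT ((mem_pull h ab.2.2.1 d).1 (ew ▸ (mem_pull h ab.2.2.1 (h.cself hw)).2 l))
    obtain ⟨y, b⟩ := h.up k'
    have ex : (g * y)⁻¹⁻¹ * Θ e0 * (g * y)⁻¹ = x := by
      rw [← b.2 _ e0Q] at ew
      calc _ = g * (y * Θ e0 * y⁻¹) * g⁻¹ := by group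
        _ = _ := by rw [ew]; group
    obtain ⟨l, el⟩ := conjE h p (g := (g * y)⁻¹) (ex ▸ c.1)
    exact ne ((χQ ((h.memQ c).1 (ex ▸ el ▸ h.mem _ (h.cm e0Q l)))).symm.trans k)
  by_cases gz : g⁻¹ * z * g = z
  · obtain ⟨l, b⟩ := h.down g⁻¹ (conj_eq_iff.1 (by rwa [inv_inv]))
    have := χ_eq h d (inv_inv g ▸ h.cconj b c)
    rw [e, map_mul, map_mul, k, mul_right_comm, ← map_mul, mul_inv_cancel, map_one, one_mul] at this
    exact ne this
  have s : g⁻¹ * z * g * (g⁻¹ * x * g) = g⁻¹ * x * g * (g⁻¹ * z * g) := by rw [← t]; group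
  refine nT ((OT n o).2.1 ((h.com d uQ).1 ?_))
  rcases eqU h ((h.memQ d2).2 (g1 n o)) (isConj_iff.2 ⟨g⁻¹, by rw [inv_inv]⟩) gz with l | l <;> rw [l] at s
  exacts [s, by rwa [← mul_assoc _ z, d.1, mul_assoc, mul_assoc z, mul_right_inj] at s]

theorem exists_K2 [K.Normal] (i : K.index ∣ 2) (c : Cor Θ Q0 z x m) (k : χ m = -1) (mm : m * m = 1) (xK : x ∉ K) :
    ∃ K : Subgroup G, K.Normal ∧ K.index ∣ 2 ∧ x ∉ K ∧ Θ e0 ∈ K := by
  have w : a ∈ χ.ker := χQ h.l0.mem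
  have q : ∀ {y}, y ∈ Q → y ∈ pull h χ.ker := fun hy =>
    (h.surj _ hy).elim fun y e => e.2 ▸ (mem_pull h w (h.cself e.1)).2 (χQ e.1)
  obtain ⟨L, n, -, l, f⟩ := CF.Transfer.exists_normal_of_transfer (H := 𝐂₁(z)) (M := pull h χ.ker)
    (commutator_le.2 fun g hg y hy => by
      obtain ⟨m, c⟩ := h.down g (mem_c1.1 hg)
      obtain ⟨n, d⟩ := h.down y (mem_c1.1 hy)
      exact (mem_pull h w (h.cmul (h.cconj c d) (h.cinv d))).2 (by
        rw [MonoidHom.mem_ker, map_mul, map_mul, map_mul, map_inv, map_inv, mul_inv_cancel_comm, mul_inv_cancel]))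
  refine ⟨L, n, l.trans ?_, fun t => ?_, (f _ (h.l.le_c1 (h.mem _ e0Q)) fun j g hg => ?_).2
    (pow_mem (q (h.mem _ e0Q)) _)⟩
  · rw [rel_pull h w, index_ker]
    simpa using card_subgroup_dvd_card χ.range
  · rw [f x (mem_c1.2 c.1) fun j g hg => ?_, mem_pull h w (cpow h c _), MonoidHom.mem_ker, map_pow, k,
      (Nat.odd_iff.2 (Nat.two_dvd_ne_zero.1 (odd_C h))).neg_one_pow] at t
    · exact absurd t (by decide)
    obtain ⟨n, d⟩ := h.down _ (mem_c1.1 hg)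
    have c' := cpow h c j
    rw [mem_pull h w (h.cmul (h.cinv c') d), MonoidHom.mem_ker, map_mul, map_inv, inv_mul_eq_one]
    rcases pow_cases mm j with e | e <;> rw [e] at c' ⊢
    · rw [map_one]
      rcases h.left c' with e | e <;> rw [e] at d
      · exact (χ_eq h d (by simpa using h.ca)).trans w |>.symm
      · exact (OT n (Tu n ((mem_pull h ab.2.2.1 d).1 (cls h p (isConj_iff.2 ⟨g⁻¹, by rw [inv_inv]⟩) d.1))).2).1.symm
    · refine k.trans (keyx h p i c' k mm (fun t => xK ?_) d).symm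
      rcases h.left' c' c with e | e <;> rw [e] at t
      exacts [t, (mul_mem_cancel_left (zK h i)).1 t]
  · rcases pow_cases ((sq1 h e0Q).2 bas.2.2.2.2.2.2.1) j with e | e <;> rw [e] at hg ⊢
    · simp [one_mem]
    · obtain ⟨k, e⟩ := conjE h p (mem_c1.1 hg)
      exact q (mul_mem (inv_mem (h.mem _ e0Q)) (e ▸ h.mem _ (h.cm e0Q k)))

theorem exists_H : ∃ H : Subgroup G, H.Normal ∧ H.index ∣ 4 ∧ IsSyl 2 (pull h T0) H := by
  obtain ⟨K, n, i, eK⟩ := exists_K1 h p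
  obtain ⟨x, m, c, k, mm, xK⟩ : ∃ x m, Cor Θ Q0 z x m ∧ χ m = -1 ∧ m * m = 1 ∧ x ∉ K := by
    obtain ⟨x, c⟩ := h.up p0
    by_cases xK : x ∈ K
    · obtain ⟨k, e⟩ := fp.2.2.2.2.2.2.1
      obtain ⟨y, b⟩ := h.up k
      refine ⟨_, _, h.cmul c (h.cself fp.2.2.2.2.1), fp.2.1, fp.2.2.2.1, fun t => eK ?_⟩
      rw [mul_mem_cancel_left xK, ← e, ← b.2 _ e0Q] at t
      simpa [mul_assoc] using n.conj_mem _ t y⁻¹
    · exact ⟨x, _, c, fp.1, fp.2.2.1, xK⟩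
  obtain ⟨L, n', l, xL, eL⟩ := exists_K2 h p i.dvd c k mm xK
  have tT : ∀ {K : Subgroup G} [K.Normal], K.index ∣ 2 → pull h T0 ≤ K := fun i g hg =>
    ((mem_pull' h).1 hg).elim fun m c => TK h p i c.2 c.1
  have key : ∀ {g m}, Cor Θ Q0 z g m → g ∈ K ⊓ L → χ m = 1 ∧ u0 * m = m * u0 := fun {g n} d hg => by
    replace hg := mem_inf.1 hg
    have : χ n = 1 := (Int.units_eq_one_or _).resolve_right fun e => xL (by
      have e' : χ (n * m) = 1 := by rw [map_mul, e, k]; rfl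
      rw [← mul_mem_cancel_left hg.2]
      by_cases t : u0 * (n * m) = n * m * u0
      · exact NK h p l (h.cmul d c) e' t
      · exact (mul_mem_cancel_right eL).1 (NK h p l (h.cmul (h.cmul d c) (h.cself e0Q))
          (by rw [map_mul, e', χQ e0Q, mul_one]) ((fN _ e').2.1 t)))
    exact ⟨this, by_contra fun t => eK ((mul_mem_cancel_left hg.1).1 (NK h p i.dvd (h.cmul d (h.cself e0Q))
      (by rw [map_mul, this, χQ e0Q, mul_one]) ((fN _ this).2.1 t)))⟩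
  refine ⟨K ⊓ L, inferInstance, ?_, ?_⟩
  · rw [← relIndex_mul_index (inf_le_left (a := K) (b := L)), i, inf_relIndex_left]
    exact Nat.mul_dvd_mul_right ((relIndex_dvd_index_of_normal _ _).trans l) 2
  · obtain ⟨S, s, t⟩ := exists_isSyl_ge (p := 2) (IsPGroup.of_card (n := 6) ((card_pull h ab.2.2.1).trans card_T0)) (pull_le h)
    have := (h.l.isSyl_top s).inf_normal (N := K ⊓ L)
    rwa [show S ⊓ (K ⊓ L) = pull h T0 from le_antisymm (fun g hg => ?_) (le_inf t (le_inf (tT i.dvd) (tT l)))] at this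
    obtain ⟨j, e⟩ := isPGroup_iff_forall.1 this.isPGroup g hg
    refine mem_of_sq _ (fun y hy t => ?_) hg j (e ▸ one_mem _)
    obtain ⟨n, d⟩ := h.down y (mem_c1.1 (s.le hy.1))
    exact (mem_pull h ab.2.2.1 d).2 (((fN n (key d hy.2).1).2.2 (key d hy.2).2).2
      ((mem_pull h ab.2.2.1 (h.cmul d d)).1 t))

end CF.Pg
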