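import Cfsg.Agent.Geom.Hy2
import Cfsg.Agent.Solv.Gaschutz

/-! A group of shape `3^{1+2}.SL₂(3)` with `O₂ = 1` containing `3³` is the stabiliser of a vector in `Sp₄(3)`. -/

set_option autoImplicit false
set_option maxRecDepth 100000
set_option linter.unusedSectionVars false

namespace CF.X648
open Subgroup Cfsg CF.BG CF.Geom.Hy
open scoped commutatorElement

abbrev K := ZMod 3
abbrev SL23 := Matrix.SpecialLinearGroup (Fin 2) K
variable {X : Type*} [Group X] {x y w l t g r s : X} {i j m p q u v : K}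

/-- generators of a Heisenberg group with central commutator -/
structure Hz (x y w : X) : Prop where
  x3 : x ^ 3 = 1
  y3 : y ^ 3 = 1
  w3 : w ^ 3 = 1
  c : ∀ g, g * w = w * g
  yx : y * x = x * y * w
  w1 : w ≠ 1

def ρ (x y w : X) (i j m : K) : X := x ^ i.val * y ^ j.val * w ^ (m - i * j).val

theorem pw (h : x ^ 3 = 1) {a b : ℕ} (e : (a : K) = b) : x ^ a = x ^ b := by
  rw [pow_eq_pow_mod a h, pow_eq_pow_mod b h, (ZMod.natCast_eq_natCast_iff' a b 3).1 e]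

theorem ρ0 : ρ x y w 0 0 0 = 1 := by simp [ρ]
theorem ρx : ρ x y w 1 0 0 = x := by simp [ρ, ZMod.val_one]
theorem ρy : ρ x y w 0 1 0 = y := by simp [ρ, ZMod.val_one]
theorem ρw : ρ x y w 0 0 m = w ^ m.val := by simp [ρ]

namespace Hz
variable (h : Hz x y w)
include h

theorem cp (n : ℕ) (g : X) : g * w ^ n = w ^ n * g := (Commute.pow_right (h.c g) n).eq

theorem sw (a b : ℕ) : y ^ b * x ^ a = x ^ a * y ^ b * w ^ (b * a) := by
  have k : ∀ b : ℕ, y ^ b * x = x * y ^ b * w ^ b := fun b => by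
    induction b with
    | zero => simp
    | succ b e => rw [pow_succ, mul_assoc, h.yx, ← mul_assoc, ← mul_assoc, e, mul_assoc _ _ y, ← h.cp]; group
  induction a with
  | zero => simp
  | succ a e => rw [pow_succ, ← mul_assoc, e, mul_assoc, ← h.cp, ← mul_assoc, mul_assoc _ _ x, k]; group

theorem mul (i j m i' j' m' : K) :
    ρ x y w i j m * ρ x y w i' j' m' = ρ x y w (i + i') (j + j') (m + m' + (i * j' - j * i')) := by
  have e : ∀ a b c a' b' c' : ℕ, x ^ a * y ^ b * w ^ c * (x ^ a' * y ^ b' * w ^ c') =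
      x ^ (a + a') * y ^ (b + b') * w ^ (b * a' + c + c') := fun a b c a' b' c' => by
    calc _ = x ^ a * (y ^ b * (w ^ c * (x ^ a' * y ^ b'))) * w ^ c' := by simp only [mul_assoc]
      _ = x ^ a * (y ^ b * x ^ a') * y ^ b' * w ^ c * w ^ c' := by rw [← h.cp]; simp only [mul_assoc]
      _ = x ^ a * x ^ a' * y ^ b * (w ^ (b * a') * y ^ b') * w ^ c * w ^ c' := by rw [h.sw]; simp only [mul_assoc]
      _ = _ := by rw [← h.cp]; simp only [pow_add, mul_assoc]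
  rw [ρ, ρ, ρ, e]
  congr 1
  · congr 1
    · exact pw h.x3 (by simp)
    · exact pw h.y3 (by simp)
  · refine pw h.w3 ?_
    simp only [Nat.cast_add, Nat.cast_mul, ZMod.natCast_val, ZMod.cast_id', id]
    linear_combination (j * i') * (by decide : (3 : K) = 0)

theorem inv (i j m : K) : (ρ x y w i j m)⁻¹ = ρ x y w (-i) (-j) (-m) :=
  inv_eq_of_mul_eq_one_right (by rw [h.mul, ← ρ0 (x := x) (y := y) (w := w)]; congr 1 <;> ring)

theorem pow (n : ℕ) : ρ x y w i j m ^ n = ρ x y w (n * i) (n * j) (n * m) := by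
  induction n with
  | zero => simp [ρ0]
  | succ n e => rw [pow_succ, e, h.mul]; congr 1 <;> push_cast <;> ring

theorem cm (i j m i' j' m' : K) : ⁅ρ x y w i j m, ρ x y w i' j' m'⁆ = w ^ (j * i' - i * j').val := by
  rw [commutatorElement_def, h.inv, h.inv, h.mul, h.mul, h.mul, ← ρw (x := x) (y := y)]
  congr 1
  · ring
  · ring
  · linear_combination (i * j' - j * i') * (by decide : (3 : K) = 0)

theorem w0 (e : w ^ m.val = 1) : m = 0 := by
  have := orderOf_dvd_of_pow_eq_one e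
  rw [orderOf_eq_prime h.w3 h.w1] at this
  clear e; revert m; decide

theorem one (e : ρ x y w i j m = 1) : i = 0 ∧ j = 0 ∧ m = 0 := by
  have a := h.cm i j m 1 0 0
  have b := h.cm i j m 0 1 0
  rw [e, commutatorElement_one_left] at a b
  obtain rfl : j = 0 := by simpa using h.w0 a.symm
  obtain rfl : i = 0 := by simpa using h.w0 b.symm
  exact ⟨rfl, rfl, h.w0 (ρw.symm.trans e)⟩

theorem inj {i' j' m' : K} (e : ρ x y w i j m = ρ x y w i' j' m') : i = i' ∧ j = j' ∧ m = m' := by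
  rw [← mul_inv_eq_one, h.inv, h.mul] at e
  obtain ⟨a, b, c⟩ := h.one e
  obtain rfl := add_neg_eq_zero.1 a
  obtain rfl := add_neg_eq_zero.1 b
  exact ⟨rfl, rfl, by linear_combination c⟩

theorem act (e1 : l * x * l⁻¹ = ρ x y w p u 0) (e2 : l * y * l⁻¹ = ρ x y w q v 0) (d : p * v - q * u = 1)
    (i j m : K) : l * ρ x y w i j m * l⁻¹ = ρ x y w (p * i + q * j) (u * i + v * j) m := by
  have : l * ρ x y w i j m * l⁻¹ =
      (l * x * l⁻¹) ^ i.val * (l * y * l⁻¹) ^ j.val * ρ x y w 0 0 (m - i * j) := by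
    rw [conj_pow, conj_pow, ρw, ρ, ← mul_assoc, mul_assoc _ _ l⁻¹, ← h.cp]; group
  rw [this, e1, e2, h.pow, h.pow, h.mul, h.mul]
  simp only [ZMod.natCast_val, ZMod.cast_id', id]
  congr 1
  · ring
  · ring
  · linear_combination (i * j) * d

theorem det (e1 : l * x * l⁻¹ = ρ x y w p u 0) (e2 : l * y * l⁻¹ = ρ x y w q v 0) : p * v - q * u = 1 := by
  have a := h.cm q v 0 p u 0
  have b := h.cm 0 1 0 1 0 0
  rw [← e1, ← e2, ← conjugate_commutatorElement, ← ρx (x := x) (y := y) (w := w)] at a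
  nth_rw 1 [← ρy (x := x) (y := y) (w := w)] at a
  rw [ρx] at a b
  rw [b, h.cp, mul_inv_cancel_right, ← ρw (x := x) (y := y), ← ρw (x := x) (y := y)] at a
  linear_combination (h.inj a).2.2.symm

end Hz

/-- the hypotheses; `z` generates the centre of the kernel -/
structure St (π : X →* SL23) (z : X) : Prop where
  sj : Function.Surjective π
  c : ♯π.ker = 27
  ex : ∀ r, π r = 1 → r ^ 3 = 1
  o : orderOf z = 3
  zc : π.ker ⊓ 𝐂 π.ker = zpowers z
  d : ⁅π.ker, π.ker⁆ ≤ zpowers z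
  o2 : ∀ t : X, t * t = 1 → (∀ g, g * t = t * g) → t = 1

theorem sq3 (h : r ^ 3 = 1) (e : r⁻¹ = r) : r = 1 := by
  rw [← h, pow_succ, pow_two]; nth_rw 2 [← e]; simp

namespace St
variable [Finite X] {π : X →* SL23} {z : X} (h : St π z)
include h

theorem zR (m : r ∈ zpowers z) : π r = 1 := (h.zc.ge m).1

theorem cz (m : r ∈ zpowers z) (g : X) : g * r = r * g := by
  have n : ∀ g : X, g ∈ 𝐍 (zpowers z) := fun g => by
    have := (normalIn_top.2 π.normal_ker).norm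
    rw [← h.zc]; exact norm_inf this (this.trans (norm_cent le_rfl)) (mem_top g)
  have k : ∀ g : X, g * g ∈ 𝐂₁ z := fun g => by
    obtain ⟨k, e⟩ := mem_powers_iff_mem_zpowers.2 (conj_mem_of_norm (n g) (mem_zpowers z))
    have z3 := h.ex z (h.zR (mem_zpowers z))
    have : g * g * z * (g * g)⁻¹ = z ^ (k * k) := by
      rw [pow_mul, show z ^ k = _ from e, conj_pow, show z ^ k = _ from e]; group
    refine mem_cent1.2 (mul_inv_eq_iff_eq_mul.1 (this.trans ((pw z3 (b := 1) ?_).trans (pow_one z))))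
    have : (k : K) ≠ 0 := fun q => by
      have := (show z ^ k = _ from e).symm.trans (pw z3 (b := 0) (by simpa))
      have o := h.o
      simp_all
    push_cast; revert this; generalize (k : K) = a; revert a; decide
  obtain ⟨α, β, e⟩ := (by decide +kernel : ∀ σ : SL23, ∃ α β, σ = α * α * (β * β)) (π g)
  obtain ⟨a, rfl⟩ := h.sj α
  obtain ⟨b, rfl⟩ := h.sj β
  have := le_cent1_iff.2 (h.zc.ge (mem_zpowers z)).2 (show (a * a * (b * b))⁻¹ * g ∈ π.ker by
    simp only [MonoidHom.mem_ker, map_mul, map_inv, e, inv_mul_cancel])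
  exact mem_cent.1 ((cent_zpowers z).ge ((mul_mem_cancel_left (inv_mem (mul_mem (k a) (k b)))).1 this)) r m |>.symm

theorem cmm (a : π r = 1) (b : π s = 1) : ⁅r, s⁆ ∈ zpowers z := h.d (commutator_mem_commutator a b)

theorem cen (a : π r = 1) (n : r ∉ zpowers z) : π.ker ⊓ 𝐂₁ r ≤ zpowers z ⊔ zpowers r := by
  have l : zpowers z ⊔ zpowers r ≤ π.ker ⊓ 𝐂₁ r := sup_le (fun _ m => ⟨h.zR m, mem_cent1.2 (h.cz m r).symm⟩)
    (zpowers_le.2 ⟨a, mem_cent1.2 rfl⟩)
  have c1 := card_lt (left_lt_sup.2 (mt zpowers_le.1 n))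
  have c2 := card_lt ((inf_le_left (b := 𝐂₁ r)).lt_of_ne fun e => n (h.zc.le ⟨a, le_cent1_iff.1 (inf_eq_left.1 e)⟩))
  have c3 := card_le l
  have d1 := card_dvd (l.trans inf_le_left)
  have d2 := card_dvd (inf_le_left (a := π.ker) (b := 𝐂₁ r))
  rw [Nat.card_zpowers, h.o, h.c] at *
  refine (eq_of_card_eq l ?_).ge
  have := Nat.le_of_dvd (by decide) d1
  generalize ♯(zpowers z ⊔ zpowers r) = a at *
  generalize ♯(π.ker ⊓ 𝐂₁ r) = b at *
  interval_cases a <;> interval_cases b <;> omega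

theorem exi (e : π g = -1) : π (g ^ 3) = -1 ∧ g ^ 3 * g ^ 3 = 1 := by
  refine ⟨by rw [map_pow, e]; decide +kernel, ?_⟩
  rw [← (Commute.refl g).mul_pow]
  exact h.ex _ (by rw [map_mul, e]; decide +kernel)

variable (et : π t = -1) (tt : t * t = 1)
include et tt

theorem dec (g : X) : ∃ c s, g = c * s ∧ c * t = t * c ∧ π s = 1 ∧ t * s * t⁻¹ = s⁻¹ := by
  have a : π (g⁻¹ * t * g * t⁻¹) = 1 := by
    simp only [map_mul, map_inv, et]; generalize π g = σ; revert σ; decide +kernel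
  have b : t * (g⁻¹ * t * g * t⁻¹) * t⁻¹ = (g⁻¹ * t * g * t⁻¹)⁻¹ := by
    calc _ = t * g⁻¹ * t * g * (t * t)⁻¹ := by group
      _ = t * g⁻¹ * (t * t)⁻¹ * t * g := by rw [tt]; group
      _ = _ := by group
  have c : t * g * t⁻¹ = g * (g⁻¹ * t * g * t⁻¹) := by group
  have d := h.ex _ a
  generalize g⁻¹ * t * g * t⁻¹ = s at a b c d
  refine ⟨g * s⁻¹, s, by simp, (mul_inv_eq_iff_eq_mul.1 ?_).symm, a, b⟩
  calc _ = t * g * t⁻¹ * (t * s * t⁻¹)⁻¹ := by group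
    _ = g * s ^ 3 * s⁻¹ := by rw [b, c, pow_succ, pow_two]; group
    _ = _ := by rw [d, mul_one]

theorem exs : ∃ s, s ≠ 1 ∧ π s = 1 ∧ t * s * t⁻¹ = s⁻¹ := by
  by_contra! k
  rw [h.o2 t tt fun g => ?_, map_one] at et
  · exact absurd et (by decide +kernel)
  obtain ⟨c, s, rfl, a, b, d⟩ := h.dec et tt g
  rw [show s = 1 from by_contra fun n => k s n b d, mul_one, a]

omit tt et in
theorem iz (a : t * s * t⁻¹ = s⁻¹) (b : π s = 1) (c : s * t = t * s) : s = 1 :=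
  sq3 (h.ex s b) (by rw [← a, ← c, mul_inv_cancel_right])

theorem fx (a : π r = 1) (c : r * t = t * r) : r ∈ zpowers z := by_contra fun n => by
  obtain ⟨s, s1, b, d⟩ := h.exs et tt
  have m := h.cmm a b
  have e : ⁅r, s⁆ = 1 := sq3 (h.ex _ (h.zR m)) (by
    have e1 : t * ⁅r, s⁆ * t⁻¹ = ⁅r, s⁻¹⁆ := by rw [conjugate_commutatorElement, d, ← c, mul_inv_cancel_right]
    rw [h.cz m, mul_inv_cancel_right] at e1
    calc _ = s⁻¹ * (⁅r, s⁆⁻¹ * s) := by rw [← h.cz (inv_mem m)]; group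
      _ = _ := by nth_rw 2 [e1]; simp only [commutatorElement_def]; group)
  exact s1 (h.iz d b (mem_cent1.1 ((sup_le (fun _ m => mem_cent1.2 (h.cz m t).symm) (zpowers_le.2 (mem_cent1.2 c)) :
    _ ≤ 𝐂₁ t) (h.cen a n ⟨b, mem_cent1.2 (commutatorElement_eq_one_iff_mul_comm.1 e).symm⟩))))

theorem decR (a : π r = 1) : ∃ c ∈ zpowers z, ∃ s, r = c * s ∧ π s = 1 ∧ t * s * t⁻¹ = s⁻¹ := by
  obtain ⟨c, s, rfl, b, d, e⟩ := h.dec et tt r
  exact ⟨c, h.fx et tt (by simpa [d] using a) b, s, rfl, d, e⟩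

omit tt et in
theorem cR (m : g ∈ 𝐂 π.ker) : π g = 1 := by_contra fun n => by
  obtain ⟨ρ, e⟩ := (by decide +kernel : ∀ σ : SL23, σ ≠ 1 → ∃ ρ, σ = -1 ∨ (σ * (ρ * σ⁻¹ * ρ⁻¹)) ^ 2 = -1) (π g) n
  obtain ⟨ρ, rfl⟩ := h.sj ρ
  obtain ⟨y, hy, e⟩ : ∃ y ∈ 𝐂 π.ker, π y = -1 := e.elim (⟨g, m, ·⟩) fun e => ⟨_, pow_mem (mul_mem m (conj_mem_of_norm
    (norm_cent le_rfl ((normalIn_top.2 π.normal_ker).norm (mem_top ρ))) (inv_mem m))) 2,
    by simpa only [map_pow, map_mul, map_inv]⟩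
  obtain ⟨s, s1, a, b⟩ := h.exs (h.exi e).1 (h.exi e).2
  exact s1 (h.iz b a (mem_cent.1 (pow_mem hy 3) s a))

theorem exc {E : Subgroup X} (ab : Abel E) (ex : ∀ a ∈ E, a ^ 3 = 1) (c : ♯E = 27) :
    ∃ c, c * t = t * c ∧ c ^ 3 = 1 ∧ π c ≠ 1 := by
  have c3 := (Nat.card_zpowers z).trans h.o
  obtain ⟨u, hu, nu⟩ := SetLike.not_le_iff_exists.1 fun l : E ≤ π.ker =>
    absurd (card_le (H := E) ((le_inf l (eq_of_card_eq l (c.trans h.c.symm) ▸ ab)).trans h.zc.le)) (by rw [c, c3]; decide)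
  obtain ⟨a, ⟨ha, ra⟩, na⟩ := SetLike.not_le_iff_exists.1 fun l : E ⊓ π.ker ≤ zpowers z => by
    have e1 := card_mul_relIndex (inf_le_left (a := E) (b := π.ker))
    rw [inf_relIndex_left, relIndex_ker, c] at e1
    have e2 := card_le l
    have e3 := card_subgroup_dvd_card (E.map π)
    rw [Nat.card_eq_fintype_card (α := SL23), (by decide +kernel : Fintype.card SL23 = 24)] at e3
    have e4 := Nat.le_of_dvd (by decide) (Nat.dvd_gcd e3 (Dvd.intro_left _ e1))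
    rw [c3] at e2
    have := Nat.mul_le_mul e2 e4
    rw [e1] at this
    exact absurd this (by decide)
  obtain ⟨c, s, rfl, e1, e2, e3⟩ := h.dec et tt u
  obtain ⟨ζ, m, b, rfl, e4, e5⟩ := h.decR et tt ra
  have nb : b ∉ zpowers z := fun q => na (mul_mem m q)
  have e6 : c * s * b = b * (c * s) := by
    have := ab.mul_comm hu ha
    rwa [← mul_assoc, h.cz m, mul_assoc, mul_assoc ζ, mul_right_inj] at this
  have m' := h.cmm e2 e4
  have e7 : c * b * c⁻¹ = ⁅s, b⁆⁻¹ * b := by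
    rw [eq_inv_mul_iff_mul_eq, ← mul_assoc, ← mul_assoc, ← h.cz m']
    calc _ = c * s * b * (c * s)⁻¹ := by simp only [commutatorElement_def]; group
      _ = b := by rw [e6]; group
  have e8 : ⁅s, b⁆ = 1 := sq3 (h.ex _ (h.zR m')) (by
    have : t * (c * b * c⁻¹) * t⁻¹ = (c * b * c⁻¹)⁻¹ := by
      calc _ = t * c * b * (t * c)⁻¹ := by group
        _ = c * (t * b * t⁻¹) * c⁻¹ := by rw [← e1]; group
        _ = _ := by rw [e5]; group
    rwa [e7, ← mul_assoc, h.cz (inv_mem m'), mul_assoc, mul_assoc, ← mul_assoc t, e5, mul_inv_rev, inv_inv, h.cz m',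
      mul_left_inj] at this)
  rw [e8, inv_one, one_mul, mul_inv_eq_iff_eq_mul] at e7
  have e9 : Commute s c := mem_cent1.1 ((sup_le (fun _ m => mem_cent1.2 (h.cz m c).symm)
    (zpowers_le.2 (mem_cent1.2 e7.symm)) : _ ≤ 𝐂₁ c)
      (h.cen e4 nb ⟨e2, mem_cent1.2 (commutatorElement_eq_one_iff_mul_comm.1 e8)⟩))
  have := ex _ hu
  rw [e9.symm.mul_pow, h.ex s e2, mul_one] at this
  exact ⟨c, e1, this, fun q => nu (show π _ = 1 by rw [map_mul, q, e2, mul_one])⟩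

theorem exL {c : X} (ct : c * t = t * c) (c3 : c ^ 3 = 1) (c1 : π c ≠ 1) : ∃ L : Subgroup X, L ≤ 𝐂₁ t ∧
    (∀ l ∈ L, π l = 1 → l = 1) ∧ ∀ g, ∃ r, ∃ l ∈ L, π r = 1 ∧ g = r * l := by
  set φ := π.comp (𝐂₁ t).subtype
  have sj : Function.Surjective φ := fun σ => by
    obtain ⟨g, rfl⟩ := h.sj σ
    obtain ⟨c, s, rfl, a, b, -⟩ := h.dec et tt g
    exact ⟨⟨c, mem_cent1.2 a⟩, by simp [φ, b]⟩
  have ab : Abel φ.ker := fun a m b _ => Subtype.ext (h.cz (h.fx et tt m (mem_cent1.1 a.2)) b)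
  have := ab.comm
  have o : orderOf (π c) = 3 := orderOf_eq_prime (by rw [← map_pow, c3, map_one]) c1
  have o' : orderOf (⟨c, mem_cent1.2 ct⟩ : 𝐂₁ t) = 3 :=
    orderOf_eq_prime (Subtype.ext c3) fun e => c1 (by rw [show c = 1 from congrArg Subtype.val e, map_one])
  obtain ⟨H, hH⟩ := CF.Solv.gaschutz_exists φ.ker ((zpowers (π c)).comap φ) (A := zpowers ⟨c, mem_cent1.2 ct⟩)
    (CF.Solv.coprime_card_of_isPGroup (p := 3) (fun a => ⟨1, Subtype.ext (Subtype.ext (h.ex _ a.2))⟩) (by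
      have := (zpowers (π c)).card_mul_index
      rw [Nat.card_zpowers, o, Nat.card_eq_fintype_card (α := SL23), (by decide +kernel : Fintype.card SL23 = 24)] at this
      rw [index_comap_of_surjective _ sj, show (zpowers (π c)).index = 8 by omega]; decide))
    ((eq_bot_or_eq_of_prime (by rw [Nat.card_zpowers, o']; decide) inf_le_left).resolve_right fun e =>
      c1 (inf_eq_left.1 e (mem_zpowers _)))
    (by rw [sup_comm, ← comap_map_eq, MonoidHom.map_zpowers]; rfl)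
  refine ⟨H.map (𝐂₁ t).subtype, map_subtype_le _, ?_, fun g => ?_⟩
  · rintro _ ⟨l, m, rfl⟩ e
    exact congrArg Subtype.val (disjoint_def.1 hH.disjoint e m)
  obtain ⟨c, s, rfl, a, b, -⟩ := h.dec et tt g
  obtain ⟨⟨k, l⟩, e, -⟩ := hH.existsUnique ⟨c, mem_cent1.2 a⟩
  refine ⟨c * s * c⁻¹ * k.1.1, l.1.1, mem_map_of_mem _ l.2, by simp [b, show π k.1.1 = 1 from k.2], ?_⟩
  rw [mul_assoc, show k.1.1 * l.1.1 = c from congrArg Subtype.val e]; group

theorem exH : ∃ x y w, Hz x y w ∧ π x = 1 ∧ π y = 1 ∧ π w = 1 ∧ t * x * t⁻¹ = x⁻¹ ∧ t * y * t⁻¹ = y⁻¹ := by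
  obtain ⟨x, y, a, b, c, d, e⟩ : ∃ x y, π x = 1 ∧ π y = 1 ∧ t * x * t⁻¹ = x⁻¹ ∧ t * y * t⁻¹ = y⁻¹ ∧ y * x ≠ x * y := by
    by_contra! k
    refine absurd (card_le (H := π.ker) ((le_inf le_rfl fun a m b m' => ?_).trans h.zc.le))
      (by rw [h.c, Nat.card_zpowers, h.o]; decide)
    obtain ⟨c, mc, x, rfl, a1, a2⟩ := h.decR et tt m
    obtain ⟨d, md, y, rfl, b1, b2⟩ := h.decR et tt m'
    exact Commute.mul_left (h.cz md _).symm (Commute.mul_right (h.cz mc _) (k x y a1 b1 a2 b2))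
  have m := h.cmm b a
  exact ⟨x, y, _, ⟨h.ex x a, h.ex y b, h.ex _ (h.zR m), h.cz m, by rw [h.cz m]; simp only [commutatorElement_def]; group,
    mt commutatorElement_eq_one_iff_mul_comm.1 e⟩, a, b, h.zR m, c, d⟩

omit et tt in
theorem iso {E : Subgroup X} (ab : Abel E) (ex : ∀ a ∈ E, a ^ 3 = 1) (c : ♯E = 27) : Nonempty (X ≃* Hs K) := by
  obtain ⟨d, e⟩ := h.sj (-1)
  obtain ⟨et, tt⟩ := h.exi e
  generalize d ^ 3 = t at et tt
  obtain ⟨c, c1, c2, c3⟩ := h.exc et tt ab ex c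
  obtain ⟨L, l1, l2, l3⟩ := h.exL et tt c1 c2 c3
  obtain ⟨x, y, w, H, px, py, pw, tx, ty⟩ := h.exH et tt
  have pρ : ∀ i j m, π (ρ x y w i j m) = 1 := fun i j m => by simp [ρ, px, py, pw]
  have sρ : ∀ r, π r = 1 → ∃ i j m, r = ρ x y w i j m := fun r m => by
    obtain ⟨u, e⟩ := (Function.Injective.bijective_of_nat_card_le (f := fun u : K × K × K =>
      (⟨_, pρ u.1 u.2.1 u.2.2⟩ : π.ker)) (fun u v e => by
        obtain ⟨a, b, c⟩ := H.inj (congrArg Subtype.val e)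
        exact Prod.ext a (Prod.ext b c)) (by rw [h.c]; simp)).2 ⟨r, m⟩
    exact ⟨_, _, _, (congrArg Subtype.val e).symm⟩
  have tρ := H.act (l := t) (p := -1) (u := 0) (q := 0) (v := -1) (by rw [tx, ← ρx (x := x) (y := y) (w := w), H.inv, ρx]; simp)
    (by rw [ty]; nth_rw 1 [← ρy (x := x) (y := y) (w := w)]; rw [H.inv]; simp) (by simp)
  have iρ : ∀ l ∈ L, ∀ s, π s = 1 → t * s * t⁻¹ = s⁻¹ → ∃ i j, l * s * l⁻¹ = ρ x y w i j 0 := fun l m s a b => by
    obtain ⟨i, j, n, e⟩ := sρ (l * s * l⁻¹) (by simp [a])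
    have : t * (l * s * l⁻¹) * t⁻¹ = (l * s * l⁻¹)⁻¹ := by
      calc _ = t * l * s * (t * l)⁻¹ := by group
        _ = l * (t * s * t⁻¹) * l⁻¹ := by rw [← mem_cent1.1 (l1 m)]; group
        _ = _ := by rw [b]; group
    rw [e, tρ, H.inv] at this
    exact ⟨i, j, by rw [e, (by decide : ∀ n : K, n = -n → n = 0) n (H.inj this).2.2]⟩
  let T : X → Hs K → Prop := fun g k => ∃ l ∈ L, g = ρ x y w k.b k.x k.z * l ∧
    l * x * l⁻¹ = ρ x y w k.p k.r 0 ∧ l * y * l⁻¹ = ρ x y w k.q k.s 0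
  have T1 : ∀ g, ∃ k, T g k := fun g => by
    obtain ⟨r, l, m, a, rfl⟩ := l3 g
    obtain ⟨i, j, n, rfl⟩ := sρ r a
    obtain ⟨p, u, e1⟩ := iρ l m x px tx
    obtain ⟨q, v, e2⟩ := iρ l m y py ty
    exact ⟨⟨i, j, n, p, q, u, v, H.det e1 e2⟩, l, m, rfl, e1, e2⟩
  have T2 : ∀ {g k k'}, T g k → T g k' → k = k' := by
    rintro g k k' ⟨l, m, a1, a2, a3⟩ ⟨l', m', b1, b2, b3⟩
    obtain rfl : l = l' := mul_inv_eq_one.1 (l2 _ (mul_mem m (inv_mem m')) (by
      have := congrArg π (a1.symm.trans b1)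
      simp only [map_mul, pρ, one_mul] at this
      simp [this]))
    obtain ⟨e1, e2, e3⟩ := H.inj (mul_right_cancel (a1.symm.trans b1))
    obtain ⟨e4, e5, -⟩ := H.inj (a2.symm.trans b2)
    obtain ⟨e6, e7, -⟩ := H.inj (a3.symm.trans b3)
    exact Hs.ext e1 e2 e3 e4 e6 e5 e7
  have T3 : ∀ {g k g' k'}, T g k → T g' k' → T (g * g') (k * k') := by
    rintro _ k _ k' ⟨l, m, rfl, a2, a3⟩ ⟨l', m', rfl, b2, b3⟩
    have a := H.act a2 a3 k.det
    refine ⟨l * l', mul_mem m m', ?_, ?_, ?_⟩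
    · calc _ = ρ x y w k.b k.x k.z * (l * ρ x y w k'.b k'.x k'.z * l⁻¹) * (l * l') := by group
        _ = _ := by rw [a, H.mul]; simp only [Hs.mul_b, Hs.mul_x, Hs.mul_z, add_assoc]
    · calc _ = l * (l' * x * l'⁻¹) * l⁻¹ := by group
        _ = _ := by rw [b2, a]; rfl
    · calc _ = l * (l' * y * l'⁻¹) * l⁻¹ := by group
        _ = _ := by rw [b3, a]; rfl
  choose θ hθ using T1
  refine ⟨.ofBijective (MonoidHom.mk' θ fun a b => T2 (hθ _) (T3 (hθ a) (hθ b)))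
    (Function.Injective.bijective_of_nat_card_le ((injective_iff_map_eq_one _).2 fun g e => ?_) ?_)⟩
  · obtain ⟨l, m, a1, a2, a3⟩ := (show θ g = 1 from e) ▸ hθ g
    rw [a1, l2 l m (h.cR fun r m => ?_)]
    · exact (mul_one _).trans ρ0
    obtain ⟨i, j, n, rfl⟩ := sρ r m
    exact (mul_inv_eq_iff_eq_mul.1 (by simpa using H.act a2 a3 (1 : Hs K).det i j n)).symm
  have := π.ker.card_mul_index
  rw [h.c, index_ker, MonoidHom.range_eq_top.2 h.sj, card_top] at this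
  refine (Nat.card_le_card_of_injective (β := (K × K × K) × SL23) (fun k => ((k.b, k.x, k.z), ⟨!![k.p, k.q; k.r, k.s], by
    simpa [Matrix.det_fin_two] using k.det⟩)) fun k k' e => ?_).trans (by simp [← this])
  have a := fun i j => congrArg (fun u : (K × K × K) × SL23 => u.2.1 i j) e
  exact Hs.ext (congrArg (·.1.1) e) (congrArg (·.1.2.1) e) (congrArg (·.1.2.2) e) (a 0 0) (a 0 1) (a 1 0) (a 1 1)

end St

/-- change of field -/
def Hs.congr {F F' : Type*} [Field F] [Field F'] (e : F ≃+* F') : Hs F ≃* Hs F' where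
  toFun g := ⟨e g.b, e g.x, e g.z, e g.p, e g.q, e g.r, e g.s, by simpa using congrArg e g.det⟩
  invFun g := ⟨e.symm g.b, e.symm g.x, e.symm g.z, e.symm g.p, e.symm g.q, e.symm g.r, e.symm g.s,
    by simpa using congrArg e.symm g.det⟩
  left_inv g := by ext <;> simp
  right_inv g := by ext <;> simp
  map_mul' g k := by ext <;> simp

end CF.X648
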